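import Cfsg.Agent.H487.Gen.Outer
import Cfsg.Agent.H490.Der
import Cfsg.Agent.H791.Gen.Psl2
import Cfsg.Agent.H868.ExtAlt
import Cfsg.Agent.S2119
import Cfsg.Agent.H994.TwoGen.Chain

/-!
# TEAM GEN: `LinRows.a67` (helper487)

`A_6`, `A_7` in dimension 4 over the field with two elements.
-/

set_option autoImplicit false

namespace Cfsg.Agent.H487.Gen.ASixSeven

open Cfsg.Agent.H440.TwoGen Cfsg.Agent.H891.Gen Cfsg.Agent.H50.Her Module Subgroup Equiv
open Cfsg.Agent.H994.TwoGen.Chain Cfsg.Agent.PermutationGroups.RegularLinear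

universe u

/-! ### generators of `A_6` and `A_7` -/

/-- a permutation of `Fin n` from its table and the table of the inverse -/
def mk (n : ℕ) (t s : Fin n → Fin n) (h1 : ∀ i, s (t i) = i) (h2 : ∀ i, t (s i) = i) : Perm (Fin n) :=
  ⟨t, s, h1, h2⟩

/-- `(0 1)(2 3)` -/
def x6 : Perm (Fin 6) := mk 6 ![1, 0, 3, 2, 4, 5] ![1, 0, 3, 2, 4, 5] (by decide) (by decide)
/-- `(1 2 3 4 5)` -/
def y6 : Perm (Fin 6) := mk 6 ![0, 2, 3, 4, 5, 1] ![0, 5, 1, 2, 3, 4] (by decide) (by decide)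
/-- `(0 1)(2 3)` -/
def x7 : Perm (Fin 7) := mk 7 ![1, 0, 3, 2, 4, 5, 6] ![1, 0, 3, 2, 4, 5, 6] (by decide) (by decide)
/-- `(1 2)(3 4 5 6)` -/
def y7 : Perm (Fin 7) := mk 7 ![0, 2, 1, 4, 5, 6, 3] ![0, 2, 1, 6, 3, 4, 5] (by decide) (by decide)
/-- `(0 1 2 3 4 5 6)` -/
def t7 : Perm (Fin 7) := mk 7 ![1, 2, 3, 4, 5, 6, 0] ![6, 0, 1, 2, 3, 4, 5] (by decide) (by decide)
/-- `(0 1)` -/
def z7 : Perm (Fin 7) := mk 7 ![1, 0, 2, 3, 4, 5, 6] ![1, 0, 2, 3, 4, 5, 6] (by decide) (by decide)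

/-- the stabiliser chain of `⟨x6, y6⟩` -/
def c6 : List (Fin 6 × List (List ℕ)) :=
  [(0, [[], [0], [1, 0], [0, 1, 0], [3, 3, 0], [3, 0]]), (1, [[], [1], [1, 1], [3, 3], [3]]), (2, [[], [0, 1, 1, 0, 3, 3, 0, 1], [0, 3, 3, 0, 1, 0, 3], [1, 0, 3, 0, 1, 1, 0]]), (3, [[], [3, 3, 0, 1, 0, 3, 0], [0, 1, 0, 3, 0, 1, 1]])]
/-- the stabiliser chain of `⟨x7, y7⟩` -/
def c7 : List (Fin 7 × List (List ℕ)) :=
  [(0, [[], [0], [1, 0], [0, 1, 0], [1, 0, 1, 0], [1, 1, 0, 1, 0], [3, 0, 1, 0]]), (1, [[], [1], [1, 1, 0, 1, 1, 0, 1], [3, 0, 1, 1, 0, 1], [0, 1, 1, 0, 1], [1, 0, 1, 1, 0, 1]]), (2, [[], [1, 1, 0, 1, 1, 0], [3, 0, 1, 0, 3, 0, 1, 0, 1, 0], [0, 1, 1, 0], [1, 0, 1, 0, 3, 0, 1, 0, 1, 0]]), (3, [[], [0, 3, 0, 1, 0, 3, 0, 1, 0, 1], [1, 1], [0, 1, 0, 3, 0, 1, 0, 3, 0, 3]]), (4, [[], [0, 1, 0, 3, 0, 1, 0, 3, 0, 1], [0, 3, 0, 1, 0, 3, 0, 1, 0, 3]])]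
/-- the stabiliser chain of `⟨t7, z7 t7 z7⟩` -/
def d7 : List (Fin 7 × List (List ℕ)) :=
  [(0, [[], [0], [1], [0, 1], [0, 0, 1], [2, 2], [2]]), (1, [[], [3, 0, 0], [1, 0], [0, 3, 0, 1, 0], [2, 3], [0, 3, 3]]), (2, [[], [0, 3, 0], [0, 0, 0, 3, 2, 2], [2, 1, 2, 2, 1, 2], [2, 1, 2]]), (3, [[], [0, 0, 0, 1, 0, 0, 0], [2, 2, 1, 0, 1, 2, 2], [2, 1, 0, 1, 1, 0, 0, 0]]), (4, [[], [2, 2, 2, 1, 0, 0], [2, 2, 3, 0, 0, 0]])]

theorem card6 : Nat.card (alternatingGroup (Fin 6)) = 360 := by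
  rw [nat_card_alternatingGroup]
  simp [Nat.factorial]

theorem card7 : Nat.card (alternatingGroup (Fin 7)) = 2520 := by
  rw [nat_card_alternatingGroup]
  simp [Nat.factorial]

theorem gen6 : closure ({x6, y6} : Set (Perm (Fin 6))) = alternatingGroup (Fin 6) :=
  closure_eq (by rw [Perm.mem_alternatingGroup]; decide +kernel) (by rw [Perm.mem_alternatingGroup]; decide +kernel)
    c6 (by decide +kernel) (by rw [card6]; decide)

theorem gen7 : closure ({x7, y7} : Set (Perm (Fin 7))) = alternatingGroup (Fin 7) :=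
  closure_eq (by rw [Perm.mem_alternatingGroup]; decide +kernel) (by rw [Perm.mem_alternatingGroup]; decide +kernel)
    c7 (by decide +kernel) (by rw [card7]; decide)

theorem gen7' : closure ({t7, z7 * t7 * z7⁻¹} : Set (Perm (Fin 7))) = alternatingGroup (Fin 7) :=
  closure_eq (by rw [Perm.mem_alternatingGroup]; decide +kernel) (by rw [Perm.mem_alternatingGroup]; decide +kernel)
    d7 (by decide +kernel) (by rw [card7]; decide)

/-! ### 2-generation -/

theorem twoGen_a7 {G : Type u} [Group G] {T : Subgroup G} (hT : T.Normal) (hC : centralizer (T : Set G) = ⊥)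
    (e : T ≃* alternatingGroup (Fin 7)) : TwoGen G := by
  have hz : ∀ q : Perm (Fin 7), q ∈ alternatingGroup (Fin 7) ↔ z7 * q * z7⁻¹ ∈ alternatingGroup (Fin 7) := by
    intro q
    rw [Perm.mem_alternatingGroup, Perm.mem_alternatingGroup, map_mul, map_mul, map_inv, mul_comm (Perm.sign z7),
      mul_inv_cancel_right]
  refine twoGen_of_conj hT hC (alternatingGroup (Fin 7)) ⊤ e (fun φ => ?_) z7 hz (fun p _ => ?_) t7
    (by rw [Perm.mem_alternatingGroup]; decide +kernel) gen7'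
  · obtain ⟨p, hp⟩ := (Cfsg.Agent.S2119.result 7 (by norm_num) (by norm_num)).2 φ
    refine ⟨p, mem_top _, fun q => ?_⟩
    rw [← hp]
    rfl
  · rcases Int.units_eq_one_or (Perm.sign p) with h1 | h1
    · exact Or.inl (Perm.mem_alternatingGroup.2 h1)
    · right
      have h2 : Perm.sign z7 = -1 := by decide +kernel
      rw [Perm.mem_alternatingGroup, map_mul, h1, h2]
      decide

theorem twoGen_a6 {G : Type u} [Group G] {T : Subgroup G} (hT : T.Normal) (hC : centralizer (T : Set G) = ⊥)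
    (e : T ≃* alternatingGroup (Fin 6)) : TwoGen G := by
  obtain ⟨F, _, _, hF, ⟨f⟩⟩ := Cfsg.Agent.H868.ExtAlt.alt_six
  exact Cfsg.Agent.H791.Gen.twoGen_of_aut T hC (e.trans f) fun S hS =>
    Cfsg.Agent.H791.Gen.twoGen_sub (by omega) S hS

/-! ### derivations -/

variable {V : Type u} [AddCommGroup V] [Module (ZMod 2) V] [Finite V]

theorem small_alt (L : Subgroup (V ≃ₗ[ZMod 2] V)) {n : ℕ} (e : L ≃* alternatingGroup (Fin n)) {a b : Perm (Fin n)}
    (ha : a * a = 1) (ha1 : a ≠ 1) (hab : closure ({a, b} : Set (Perm (Fin n))) = alternatingGroup (Fin n)) :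
    Small ↥L V := by
  have hfin := finite_gl (p := 2) (V := V)
  have hma : a ∈ alternatingGroup (Fin n) := by rw [← hab]; exact subset_closure (by simp)
  have hmb : b ∈ alternatingGroup (Fin n) := by rw [← hab]; exact subset_closure (by simp)
  have h1 : closure ({(⟨a, hma⟩ : alternatingGroup (Fin n)), ⟨b, hmb⟩} : Set (alternatingGroup (Fin n))) = ⊤ := by
    apply Subgroup.map_injective (alternatingGroup (Fin n)).subtype_injective
    rw [MonoidHom.map_closure, Set.image_pair]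
    change closure ({a, b} : Set (Perm (Fin n))) = _
    rw [hab, ← MonoidHom.range_eq_map, Subgroup.range_subtype]
  have h2 : closure ({e.symm ⟨a, hma⟩, e.symm ⟨b, hmb⟩} : Set L) = ⊤ := by
    have h3 := MonoidHom.map_closure (e.symm : alternatingGroup (Fin n) →* L)
      ({(⟨a, hma⟩ : alternatingGroup (Fin n)), ⟨b, hmb⟩} : Set (alternatingGroup (Fin n)))
    rw [h1, Set.image_pair, ← MonoidHom.range_eq_map, MonoidHom.range_eq_top.2 e.symm.surjective] at h3
    exact h3.symm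
  have h4 : (e.symm ⟨a, hma⟩ : L) ≠ 1 := by
    intro h
    apply ha1
    have h5 : (⟨a, hma⟩ : alternatingGroup (Fin n)) = 1 := by
      apply e.symm.injective
      rw [h, map_one]
    exact congrArg Subtype.val h5
  obtain ⟨v, hv⟩ : ∃ v : V, (e.symm ⟨a, hma⟩ : L) • v ≠ v := by
    by_contra hcon
    push Not at hcon
    apply h4
    apply Subtype.ext
    ext v
    exact hcon v
  refine Cfsg.Agent.H490.Der.small_of_involution (fun v => ZModModule.char_nsmul_eq_zero 2 v) h2 ?_ hv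
  rw [← map_pow, pow_two]
  have h5 : (⟨a, hma⟩ * ⟨a, hma⟩ : alternatingGroup (Fin n)) = 1 := Subtype.ext ha
  rw [h5, map_one]

/-- the order of `GL(U)` -/
theorem card_gl {p : ℕ} [Fact p.Prime] {W : Type*} [AddCommGroup W] [Module (ZMod p) W] [Finite W] {n : ℕ}
    (hW : finrank (ZMod p) W = n) : Nat.card (W ≃ₗ[ZMod p] W) = ∏ i : Fin n, (p ^ n - p ^ (i : ℕ)) := by
  let b : Basis (Fin n) (ZMod p) W := Module.finBasisOfFinrankEq (ZMod p) W hW
  have e1 : (W ≃ₗ[ZMod p] W) ≃ Matrix.GeneralLinearGroup (Fin n) (ZMod p) :=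
    ((LinearMap.GeneralLinearGroup.generalLinearEquiv (ZMod p) W).symm.trans
      (Units.mapEquiv (LinearMap.toMatrixAlgEquiv b).toMulEquiv)).toEquiv
  rw [Nat.card_congr e1, Matrix.card_GL_field, ZMod.card]

/-- the group `A` is trivial -/
theorem A_eq_bot [Nontrivial V] {G A L : Subgroup (V ≃ₗ[ZMod 2] V)}
    (htr : ∀ v w : V, v ≠ 0 → w ≠ 0 → ∃ g ∈ G, g v = w) (hL : Perf G A L)
    (hq : Quasi A L) (hd : finrank (ZMod 2) V = 4) (hc : Nat.card L = 360 ∨ Nat.card L = 2520)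
    (hs : IsSimpleGroup L) : A = ⊥ := by
  have hfin := finite_gl (p := 2) (V := V)
  have hfinV : FiniteDimensional (ZMod 2) V := Module.Finite.of_finite
  obtain ⟨b, h1, h2, h3⟩ := hL.exists_cfg htr hq
  have hb1 := h3.b_dvd
  have hb2 := h3.b_lt
  rw [hd] at hb1 hb2
  have hA : Nat.card A = 1 ∨ Nat.card A = 3 := by
    have hb : b = 1 ∨ b = 2 := by
      have h0 := h3.b_pos
      interval_cases b <;> omega
    rcases hb with rfl | rfl
    · left
      simpa using h1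
    · have h4 : Nat.card A ∣ 3 := by simpa using h1
      exact (Nat.dvd_prime Nat.prime_three).1 h4
  rcases hA with hA | hA
  · exact Subgroup.eq_bot_of_card_eq A hA
  exfalso
  have hcomm : ∀ (a : A) (l : L), Commute (A.subtype a) (L.subtype l) := fun a l =>
    (Subgroup.mem_centralizer_iff.1 (hL.L_le l.2)) a a.2
  let f : A × L →* (V ≃ₗ[ZMod 2] V) := MonoidHom.noncommCoprod A.subtype L.subtype hcomm
  have hf : Function.Injective f := by
    rw [MonoidHom.noncommCoprod_injective]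
    refine ⟨A.subtype_injective, L.subtype_injective, ?_⟩
    rw [Subgroup.range_subtype, Subgroup.range_subtype, disjoint_iff]
    -- `A ⊓ L` is central in `L`
    have h5 : (A.subgroupOf L) ≤ center L := by
      intro z hz
      rw [mem_center_iff]
      intro g
      apply Subtype.ext
      exact ((Subgroup.mem_centralizer_iff.1 (hL.L_le g.2)) z (mem_subgroupOf.1 hz)).symm
    have h6 : center L = ⊥ := by
      rcases hs.eq_bot_or_eq_top_of_normal (center L) inferInstance with h | h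
      · exact h
      · exfalso
        apply Cfsg.Agent.H50.Her.not_com_of_perfect hL.perf hL.not_le
        intro a ha b hb
        have h7 : (⟨a, ha⟩ : L) ∈ center L := by rw [h]; exact mem_top _
        exact (congrArg Subtype.val (mem_center_iff.1 h7 ⟨b, hb⟩)).symm
    rw [h6, le_bot_iff, subgroupOf_eq_bot, disjoint_iff] at h5
    exact h5
  have h5 : Nat.card (A × L) ∣ Nat.card (V ≃ₗ[ZMod 2] V) := by
    rw [Nat.card_congr (MonoidHom.ofInjective hf).toEquiv]
    exact Subgroup.card_subgroup_dvd_card _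
  have h6 : Nat.card (V ≃ₗ[ZMod 2] V) = 20160 := by
    rw [card_gl hd]
    decide
  rw [Nat.card_prod, hA, h6] at h5
  rcases hc with h | h <;> rw [h] at h5 <;> revert h5 <;> decide

/-- **`LinRows.a67`.** -/
theorem row_a67 : ∀ (V : Type u) [AddCommGroup V] [Module (ZMod 2) V] [Finite V]
    (G A L : Subgroup (V ≃ₗ[ZMod 2] V)), (∀ v w : V, v ≠ 0 → w ≠ 0 → ∃ g ∈ G, g v = w) → MaxAb G A → Perf G A L →
    Quasi A L → finrank (ZMod 2) V = 4 →
    (Nonempty (L ≃* alternatingGroup (Fin 6)) ∨ Nonempty (L ≃* alternatingGroup (Fin 7))) → LGood G := by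
  intro V _ _ _ G A L htr _ hL hq hd he
  have hfin := finite_gl (p := 2) (V := V)
  have hnt : Nontrivial V := Module.nontrivial_of_finrank_pos (R := ZMod 2) (by omega)
  have hcs : (Nat.card L = 360 ∨ Nat.card L = 2520) ∧ IsSimpleGroup L := by
    rcases he with he | he <;> obtain ⟨e⟩ := he
    · refine ⟨Or.inl ?_, ?_⟩
      · rw [Nat.card_congr e.toEquiv, card6]
      · have := alternatingGroup.isSimpleGroup (α := Fin 6) (by simp)
        exact e.isSimpleGroup
    · refine ⟨Or.inr ?_, ?_⟩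
      · rw [Nat.card_congr e.toEquiv, card7]
      · have := alternatingGroup.isSimpleGroup (α := Fin 7) (by simp)
        exact e.isSimpleGroup
  have hA : A = ⊥ := A_eq_bot htr hL hq hd hcs.1 hcs.2
  have hT : (L.subgroupOf G).Normal := by
    constructor
    intro n hn g
    rw [mem_subgroupOf] at hn ⊢
    exact hL.nor g g.2 n hn
  have hC : centralizer ((L.subgroupOf G : Subgroup G) : Set G) = ⊥ := by
    rw [eq_bot_iff]
    intro x hx
    rw [mem_bot]
    apply Subtype.ext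
    have h1 : (x : V ≃ₗ[ZMod 2] V) ∈ G ⊓ centralizer (L : Set (V ≃ₗ[ZMod 2] V)) := by
      refine mem_inf.2 ⟨x.2, ?_⟩
      rw [mem_centralizer_iff]
      intro l hl
      exact congrArg Subtype.val ((mem_centralizer_iff.1 hx) ⟨l, hL.le hl⟩ (mem_subgroupOf.2 hl))
    rw [hL.centralizer_eq, hA, mem_bot] at h1
    exact h1
  refine ⟨?_, ?_⟩
  · rcases he with he | he <;> obtain ⟨e⟩ := he
    · exact twoGen_a6 hT hC ((subgroupOfEquivOfLe hL.le).trans e)
    · exact twoGen_a7 hT hC ((subgroupOfEquivOfLe hL.le).trans e)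
  · have hsL : Small ↥L V := by
      rcases he with he | he <;> obtain ⟨e⟩ := he
      · exact small_alt L e (a := x6) (b := y6) (by decide +kernel) (by decide +kernel) gen6
      · exact small_alt L e (a := x7) (b := y7) (by decide +kernel) (by decide +kernel) gen7
    refine Cfsg.Agent.H490.Der.small_of_map_normal (inclusion hL.le) (fun _ _ => rfl) ?_ ?_ hsL
    · intro g k
      refine ⟨⟨(g : V ≃ₗ[ZMod 2] V)⁻¹ * k * (g : V ≃ₗ[ZMod 2] V)⁻¹⁻¹, hL.nor _ (inv_mem g.2) k k.2⟩, ?_⟩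
      apply Subtype.ext
      change (k : V ≃ₗ[ZMod 2] V) * g = g * ((g : V ≃ₗ[ZMod 2] V)⁻¹ * k * (g : V ≃ₗ[ZMod 2] V)⁻¹⁻¹)
      group
    · intro v hv
      by_contra hv0
      apply hL.not_le
      intro l hl
      have h1 : l = 1 := by
        ext w
        by_cases hw : w = 0
        · rw [hw]; simp
        obtain ⟨g, hg, rfl⟩ := htr v w hv0 hw
        have h2 : g⁻¹ * l * g⁻¹⁻¹ ∈ L := hL.nor _ (inv_mem hg) l hl
        have h3 : (g⁻¹ * l * g⁻¹⁻¹) v = v := hv ⟨_, h2⟩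
        rw [inv_inv] at h3
        have h4 : g ((g⁻¹ * l * g) v) = g v := by rw [h3]
        have h5 : g ((g⁻¹ * l * g) v) = (g * (g⁻¹ * l * g)) v := rfl
        have h6 : g * (g⁻¹ * l * g) = l * g := by group
        rw [h5, h6] at h4
        exact h4
      rw [h1]
      exact one_mem _

end Cfsg.Agent.H487.Gen.ASixSeven
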