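import Cfsg.Agent.H891.Gen.Defs
import Cfsg.Agent.H384.TwoTransRed

/-!
# TEAM GEN, piece C: the assembly of S3565 (helper487)

* `NotTwo` : the row of the 2-homogeneous, not 2-transitive groups;
* `main` : S3565 from HUB H1, `ASRows`, `AffineStep`, the linear rows and `NotTwo`.
-/

set_option autoImplicit false

namespace Cfsg.Agent.H487.Gen

open Cfsg.Agent.H440.TwoGen Cfsg.Agent.H384.TwoTrans Cfsg.Agent.H891.Gen MulAction

universe u v

/-- The 2-homogeneous groups which are not 2-transitive. -/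
def NotTwo : Prop :=
  ∀ (α : Type v) [Fintype α] [DecidableEq α] (G : Subgroup (Equiv.Perm α)), G ≠ ⊥ →
    IsPretransitive G (Set.powersetCard α 2) → ¬ IsMultiplyPretransitive G α 2 → TwoGen ↥G

section

variable {G : Type u} {Ω : Type v} [Group G] [MulAction G Ω]

/-- a group acting faithfully on at most two points is cyclic -/
theorem twoGen_of_card_le_two [Finite G] [Finite Ω] [FaithfulSMul G Ω] (h : Nat.card Ω ≤ 2) : TwoGen G := by
  classical
  have hinj : Function.Injective (toPermHom G Ω) := MulAction.toPerm_injective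
  have h1 : Nat.card G ≤ Nat.card (Equiv.Perm Ω) := Nat.card_le_card_of_injective _ hinj
  have h2 : Nat.card (Equiv.Perm Ω) ≤ 2 := by
    rw [Nat.card_perm]
    interval_cases hc : Nat.card Ω <;> simp
  have h3 : Nat.card G ≤ 2 := h1.trans h2
  have h4 : 0 < Nat.card G := Nat.card_pos
  have h5 : IsCyclic G := by
    rcases (by omega : Nat.card G = 1 ∨ Nat.card G = 2) with h | h
    · have : Subsingleton G := (Nat.card_eq_one_iff_unique.1 h).1
      infer_instance
    · have := Fact.mk Nat.prime_two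
      exact isCyclic_of_prime_card h
  exact TwoGen.of_isCyclic

/-- the image in the symmetric group -/
noncomputable def toRange [FaithfulSMul G Ω] : G ≃* (toPermHom G Ω).range :=
  MonoidHom.ofInjective MulAction.toPerm_injective

theorem twoGen_of_not_two (O : NotTwo.{v}) [Finite G] [FaithfulSMul G Ω] [Fintype Ω] [DecidableEq Ω]
    (h2 : ∀ I J : Finset Ω, I.card = 2 → J.card = 2 → ∃ g : G, ∀ x ∈ I, g • x ∈ J)
    (hn2 : ¬ IsMultiplyPretransitive G Ω 2) : TwoGen G := by
  by_cases hG : Subsingleton G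
  · exact TwoGen.of_isCyclic
  rw [not_subsingleton_iff_nontrivial] at hG
  refine TwoGen.of_equiv' ⟨toRange (G := G) (Ω := Ω)⟩ (O Ω _ ?_ ?_ ?_)
  · intro h
    have h1 : Nontrivial (toPermHom G Ω).range := (toRange (G := G) (Ω := Ω)).toEquiv.symm.nontrivial
    rw [h] at h1
    exact absurd h1 (not_nontrivial_iff_subsingleton.2 inferInstance)
  · constructor
    intro s t
    obtain ⟨g, hg⟩ := h2 s.1 t.1 s.2 t.2
    refine ⟨⟨toPermHom G Ω g, g, rfl⟩, ?_⟩
    apply Subtype.ext
    refine Finset.eq_of_subset_of_card_le ?_ ?_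
    · intro x hx
      obtain ⟨y, hy, rfl⟩ := Finset.mem_smul_finset.1 hx
      exact hg y hy
    · have h3 := ((⟨toPermHom G Ω g, g, rfl⟩ : (toPermHom G Ω).range) • s).2
      have h4 := t.2
      exact (h4.trans h3.symm).le
  · intro h
    apply hn2
    rw [is_two_pretransitive_iff] at h ⊢
    intro a b c d hab hcd
    obtain ⟨⟨_, g, rfl⟩, hg1, hg2⟩ := h hab hcd
    exact ⟨g, hg1, hg2⟩

/-- **S3565** from the pieces of TEAM GEN. -/
theorem main
    (hK : ∀ (G : Type u) (Ω : Type v) [Group G] [MulAction G Ω] (T : Subgroup G), AS G Ω T →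
      Known2 ↥T (Nat.card Ω))
    (R : ASRows.{u, v}) (S : AffineStep.{u, v})
    (L : ∀ (V : Type u) [AddCommGroup V] (p : ℕ) (H : Subgroup (Equiv.Perm V)), Lin p H → AffGood H)
    (O : NotTwo.{v}) [Finite G] [FaithfulSMul G Ω] [Fintype Ω] [DecidableEq Ω]
    (h2 : ∀ I J : Finset Ω, I.card = 2 → J.card = 2 → ∃ g : G, ∀ x ∈ I, g • x ∈ J) : TwoGen G := by
  rcases Nat.lt_or_ge (Nat.card Ω) 3 with h3 | h3
  · exact twoGen_of_card_le_two (G := G) (Ω := Ω) (by omega)
  by_cases h : IsMultiplyPretransitive G Ω 2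
  · rcases reduction h h3 with ⟨N, hN, hN1, hc, -⟩ | ⟨T, A⟩
    · exact S G Ω N inferInstance inferInstance inferInstance h hN hN1
        (fun x hx y hy => congrArg Subtype.val (hc.is_comm.comm (⟨x, hx⟩ : N) ⟨y, hy⟩)) L
    · exact R.main A (hK G Ω T A)
  · exact twoGen_of_not_two O h2 h

end

end Cfsg.Agent.H487.Gen
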