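import Cfsg.Agent.H487.Gen.S5
import Cfsg.Agent.H490.Der3
import Cfsg.Agent.H50.HerRedTwo

/-!
# TEAM GEN: `LinRows.ext32` (helper487)

A normal extraspecial group of order 32 in dimension 4 over the field with three elements.
-/

set_option autoImplicit false

namespace Cfsg.Agent.H487.Gen.Ext

open Cfsg.Agent.H440.TwoGen Cfsg.Agent.H891.Gen Cfsg.Agent.H50.Her Module Subgroup Equiv
open Cfsg.Agent.PermutationGroups.RegularLinear

universe u

section Five

variable {Γ : Type*} [Group Γ] [Finite Γ] {s : Γ}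

/-- an element of order 5 acting without fixed points -/
theorem dvd5 (hs : s ^ 5 = 1) (D : Set Γ) (inv : ∀ x ∈ D, s * x * s⁻¹ ∈ D) (nf : ∀ x ∈ D, s * x * s⁻¹ ≠ x) :
    5 ∣ D.ncard := by
  classical
  have _ := Fintype.ofFinite Γ
  let f : Function.End D := fun x => ⟨s * x * s⁻¹, inv x x.2⟩
  have hf : ∀ (n : ℕ) (x : D), ((f ^ n) x : Γ) = s ^ n * x * (s ^ n)⁻¹ := by
    intro n
    induction n with
    | zero =>
      intro x
      rw [pow_zero, pow_zero, one_mul, inv_one, mul_one]
      rfl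
    | succ n ih =>
      intro x
      have h1 : (f ^ (n + 1)) x = (f ^ n) (f x) := by rw [pow_succ]; rfl
      rw [h1, ih]
      change s ^ n * (s * x * s⁻¹) * (s ^ n)⁻¹ = _
      rw [pow_succ]
      group
  have h5 : f ^ 5 ^ 1 = 1 := by
    funext x
    apply Subtype.ext
    rw [hf, pow_one, hs, one_mul, inv_one, mul_one]
    rfl
  have : Fact (Nat.Prime 5) := ⟨by norm_num⟩
  have h := Equiv.Perm.card_fixedPoints_modEq h5
  have h0 : Fintype.card (Function.fixedPoints f) = 0 := by
    rw [Fintype.card_eq_zero_iff]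
    constructor
    rintro ⟨x, hx⟩
    exact nf x x.2 (congrArg Subtype.val hx)
  rw [h0, Nat.modEq_zero_iff_dvd] at h
  rwa [← Nat.card_coe_set_eq, Nat.card_eq_fintype_card]

/-- a subgroup of a group of order 16 is trivial or everything, if `5` divides the number of other elements -/
theorem card16 {W : Subgroup Γ} {M : Subgroup Γ} (hM : Nat.card M = 16) (hW : W ≤ M)
    (h : 5 ∣ Nat.card M - Nat.card W) : W = M ∨ Nat.card W = 1 := by
  have h1 : Nat.card W ∣ 16 := by rw [← hM]; exact Subgroup.card_dvd_of_le hW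
  have h2 : Nat.card W = 1 ∨ Nat.card W = 16 := by
    have h3 : Nat.card W ≤ 16 := Nat.le_of_dvd (by norm_num) h1
    rw [hM] at h
    interval_cases Nat.card W <;> omega
  rcases h2 with h2 | h2
  · exact Or.inr h2
  · exact Or.inl (Subgroup.eq_of_le_of_card_ge hW (by rw [hM, h2]))

theorem irr (hs : s ^ 5 = 1) {M : Subgroup Γ} (hM : Nat.card M = 16) (hfix : ∀ x ∈ M, s * x * s⁻¹ = x → x = 1)
    {W : Subgroup Γ} (hW : W ≤ M) (hinv : ∀ x ∈ W, s * x * s⁻¹ ∈ W) : W = ⊥ ∨ W = M := by
  have h1 : 5 ∣ ((W : Set Γ) \ {1}).ncard := by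
    refine dvd5 hs _ ?_ ?_
    · rintro x ⟨hx, hx1⟩
      refine ⟨hinv x hx, fun h => hx1 ?_⟩
      rw [Set.mem_singleton_iff] at h ⊢
      have h2 : x = s⁻¹ * (s * x * s⁻¹) * s := by group
      rw [h2, h]
      group
    · rintro x ⟨hx, hx1⟩ h
      exact hx1 (hfix x (hW hx) h)
  rw [Set.ncard_sdiff_singleton_of_mem W.one_mem] at h1
  have h2 : (W : Set Γ).ncard = Nat.card W := rfl
  rw [h2] at h1
  have h3 : 0 < Nat.card W := Nat.card_pos
  have h4 : Nat.card W ≤ 16 := hM ▸ Subgroup.card_le_of_le hW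
  rcases card16 hM hW (by rw [hM]; omega) with h | h
  · exact Or.inr h
  · exact Or.inl (Subgroup.eq_bot_of_card_eq W h)

/-- **The quotient modulo the centre of the extraspecial group.** -/
theorem core2 (M : Subgroup Γ) (hMn : M.Normal) (hM : Nat.card M = 16) (hM2 : ∀ x ∈ M, x * x = 1)
    (hCM : ∀ g : Γ, (∀ x ∈ M, g * x = x * g) → g ∈ M) (hs : s ^ 5 = 1)
    (hfix : ∀ x ∈ M, s * x * s⁻¹ = x → x = 1) (D : Set Γ) (hD : D.ncard = 5) (hDM : ∀ x ∈ D, x ∈ M ∧ x ≠ 1)
    (hinv : ∀ g, ∀ x ∈ D, g * x * g⁻¹ ∈ D) : TwoGen Γ := by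
  classical
  -- `M` is abelian
  have hMc : ∀ x ∈ M, ∀ y ∈ M, x * y = y * x := by
    intro x hx y hy
    have h1 := hM2 (x * y) (M.mul_mem hx hy)
    have h2 := hM2 x hx
    have h3 := hM2 y hy
    calc x * y = x * (x * y * (x * y)) * y := by rw [h1, mul_one]
      _ = (x * x) * y * x * (y * y) := by group
      _ = y * x := by rw [h2, h3]; group
  obtain ⟨d, hd⟩ : D.Nonempty := by
    rw [← Set.ncard_pos (Set.toFinite D), hD]
    norm_num
  have hds : ∀ k : ℕ, s ^ k * d * (s ^ k)⁻¹ = d → 5 ∣ k := by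
    intro k hk
    by_contra h5
    have h1 : s ∈ zpowers (s ^ k) := by
      rw [mem_zpowers_pow_iff]
      have h2 : orderOf s ∣ 5 := orderOf_dvd_of_pow_eq_one hs
      have h3 : Nat.Coprime k 5 := ((Nat.Prime.coprime_iff_not_dvd (by norm_num)).2 h5).symm
      exact h3.coprime_dvd_right h2
    have h2 : s ∈ centralizer ({d} : Set Γ) := by
      refine (zpowers_le.2 ?_) h1
      rw [mem_centralizer_singleton_iff]
      exact mul_inv_eq_iff_eq_mul.1 hk
    rw [mem_centralizer_singleton_iff] at h2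
    exact (hDM d hd).2 (hfix d (hDM d hd).1 (mul_inv_eq_iff_eq_mul.2 h2))
  -- the numbering
  let f : Fin 5 → D := fun i => ⟨s ^ (i : ℕ) * d * (s ^ (i : ℕ))⁻¹, hinv _ _ hd⟩
  have hfval : ∀ i, (f i : Γ) = s ^ (i : ℕ) * d * (s ^ (i : ℕ))⁻¹ := fun _ => rfl
  have hf0 : ∀ i j : Fin 5, (i : ℕ) ≤ j → f i = f j → i = j := by
    intro i j hij h
    have h1 : s ^ (i : ℕ) * d * (s ^ (i : ℕ))⁻¹ = s ^ (j : ℕ) * d * (s ^ (j : ℕ))⁻¹ := congrArg Subtype.val h
    have h2 : s ^ ((j : ℕ) - i) * d * (s ^ ((j : ℕ) - i))⁻¹ = d := by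
      have h3 : s ^ (j : ℕ) = s ^ (i : ℕ) * s ^ ((j : ℕ) - i) := by rw [← pow_add]; congr 1; omega
      rw [h3] at h1
      have h4 : s ^ (i : ℕ) * (s ^ ((j : ℕ) - i) * d * (s ^ ((j : ℕ) - i))⁻¹) * (s ^ (i : ℕ))⁻¹ =
          s ^ (i : ℕ) * d * (s ^ (i : ℕ))⁻¹ := by rw [h1]; group
      exact mul_left_cancel (mul_right_cancel h4)
    have h3 := hds _ h2
    have h4 := j.2
    have h5 := i.2
    apply Fin.ext
    omega
  have hf : Function.Injective f := by
    intro i j h
    rcases le_total (i : ℕ) j with h1 | h1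
    · exact hf0 i j h1 h
    · exact (hf0 j i h1 h.symm).symm
  have hcD : Nat.card D = 5 := hD
  let E : Fin 5 ≃ D := Equiv.ofBijective f ((Nat.bijective_iff_injective_and_card f).2 ⟨hf, by rw [hcD]; simp⟩)
  have hE : ∀ i, (E i : Γ) = s ^ (i : ℕ) * d * (s ^ (i : ℕ))⁻¹ := fun _ => rfl
  let act : MulAction Γ D :=
    { smul := fun g x => ⟨g * x * g⁻¹, hinv g x x.2⟩
      one_smul := fun x => Subtype.ext (by change 1 * (x : Γ) * 1⁻¹ = x; group)
      mul_smul := fun g h x => Subtype.ext (by
        change g * h * (x : Γ) * (g * h)⁻¹ = g * (h * x * h⁻¹) * g⁻¹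
        group) }
  let ψ : Γ →* Perm (Fin 5) := (Equiv.permCongrHom E.symm).toMonoidHom.comp (MulAction.toPermHom Γ D)
  have hψ : ∀ (g : Γ) (i : Fin 5), (E (ψ g i) : Γ) = g * (E i : Γ) * g⁻¹ := by
    intro g i
    have h1 : ψ g i = E.symm (g • E i) := rfl
    rw [h1, Equiv.apply_symm_apply]
    rfl
  have hψs : ψ s = SFive.c := by
    apply Equiv.ext
    intro i
    apply E.injective
    apply Subtype.ext
    rw [hψ, hE, hE]
    have h1 : ∀ (i : Fin 5), ((SFive.c i : Fin 5) : ℕ) = ((i : ℕ) + 1) % 5 := by decide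
    rw [h1]
    have h2 : s ^ (((i : ℕ) + 1) % 5) = s * s ^ (i : ℕ) := by
      rw [← pow_succ', pow_eq_pow_mod (m := (i : ℕ) + 1) hs]
    rw [h2]
    group
  have hker : ∀ g, ψ g = 1 ↔ g ∈ M := by
    intro g
    constructor
    · intro hg
      apply hCM
      -- `D` generates `M`
      have h1 : closure D ≤ M := by
        rw [closure_le]
        exact fun x hx => (hDM x hx).1
      have h2 : closure D = M := by
        rcases irr hs hM hfix h1 (by
          have h3 : closure D ≤ (closure D).comap (MulAut.conj s).toMonoidHom := by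
            rw [closure_le]
            intro x hx
            exact subset_closure (hinv s x hx)
          exact fun x hx => h3 hx) with h3 | h3
        · exfalso
          have h4 : d ∈ closure D := subset_closure hd
          rw [h3, mem_bot] at h4
          exact (hDM d hd).2 h4
        · exact h3
      have h3 : closure D ≤ centralizer ({g} : Set Γ) := by
        rw [closure_le]
        intro x hx
        rw [SetLike.mem_coe, mem_centralizer_singleton_iff]
        have h4 := hψ g (E.symm ⟨x, hx⟩)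
        rw [hg, Perm.one_apply, Equiv.apply_symm_apply] at h4
        change x = g * x * g⁻¹ at h4
        exact (eq_mul_inv_iff_mul_eq.1 h4)
      intro x hx
      rw [← h2] at hx
      exact (mem_centralizer_singleton_iff.1 (h3 hx)).symm
    · intro hg
      apply Equiv.ext
      intro i
      apply E.injective
      apply Subtype.ext
      rw [hψ, Perm.one_apply]
      rw [hMc g hg _ (hDM _ (E i).2).1]
      group
  -- the choice of the second generator
  obtain ⟨τ, ⟨y, rfl⟩, hgen, hcase⟩ := SFive.exists_gen ψ.range ⟨s, hψs⟩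
  have hlift : ∀ n ∈ M, ∀ g : Γ, ∃ h ∈ closure ({s, y * n} : Set Γ), h⁻¹ * g ∈ M := by
    intro n hn g
    have h1 : ψ g ∈ closure ({SFive.c, ψ y} : Set (Perm (Fin 5))) := by rw [hgen]; exact ⟨g, rfl⟩
    have h2 : (closure ({s, y * n} : Set Γ)).map ψ = closure ({SFive.c, ψ y} : Set (Perm (Fin 5))) := by
      rw [MonoidHom.map_closure, Set.image_pair, hψs, map_mul, (hker n).2 hn, mul_one]
    rw [← h2] at h1
    obtain ⟨h, hh, hhg⟩ := h1
    refine ⟨h, hh, (hker _).1 ?_⟩
    rw [map_mul, map_inv, hhg, inv_mul_cancel]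
  by_contra hcon
  have hbot : ∀ n ∈ M, ∀ x ∈ closure ({s, y * n} : Set Γ), x ∈ M → x = 1 := by
    intro n hn x hx hxM
    have hsm : s ∈ closure ({s, y * n} : Set Γ) := subset_closure (by simp)
    rcases irr hs hM hfix (W := closure ({s, y * n} : Set Γ) ⊓ M) inf_le_right (by
      intro x hx
      obtain ⟨h1, h2⟩ := mem_inf.1 hx
      exact mem_inf.2 ⟨mul_mem (mul_mem hsm h1) (inv_mem hsm), hMn.conj_mem _ h2 _⟩) with h | h
    · have h1 : x ∈ closure ({s, y * n} : Set Γ) ⊓ M := mem_inf.2 ⟨hx, hxM⟩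
      rw [h, mem_bot] at h1
      exact h1
    · exfalso
      apply hcon
      refine ⟨s, y * n, ?_⟩
      rw [eq_top_iff]
      intro g _
      obtain ⟨h1, hh1, hh2⟩ := hlift n hn g
      have h5 : h1⁻¹ * g ∈ closure ({s, y * n} : Set Γ) ⊓ M := by rw [h]; exact hh2
      have h3 : h1⁻¹ * g ∈ closure ({s, y * n} : Set Γ) := (mem_inf.1 h5).1
      have h4 := mul_mem hh1 h3
      rwa [mul_inv_cancel_left] at h4
  rcases hcase with h | ⟨k, hk⟩
  · -- an involution
    have hyy : y * y ∈ M := by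
      rw [← hker, map_mul, h]
    have h1 : ∀ n ∈ M, (y * n) * (y * n) = 1 := by
      intro n hn
      have h2 : y * n ∈ closure ({s, y * n} : Set Γ) := subset_closure (by simp)
      refine hbot n hn _ (mul_mem h2 h2) ?_
      rw [← hker, map_mul, map_mul, (hker n).2 hn, mul_one, ← map_mul, hker]
      exact hyy
    have h2 : y * y = 1 := by
      have := h1 1 M.one_mem
      rwa [mul_one] at this
    have hyM : y ∈ M := by
      apply hCM
      intro n hn
      have h3 := h1 n hn
      have h4 := hM2 n hn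
      calc y * n = (y * n) * ((y * n) * (y * n))⁻¹ * 1 := by rw [h3]; group
        _ = (y * n)⁻¹ * 1 := by group
        _ = n⁻¹ * y⁻¹ := by group
        _ = n * y := by rw [inv_eq_of_mul_eq_one_left h4, inv_eq_of_mul_eq_one_left h2]
    have h3 := hbot (y⁻¹ * d) (M.mul_mem (M.inv_mem hyM) (hDM d hd).1) d
      (subset_closure (by rw [mul_inv_cancel_left]; simp)) (hDM d hd).1
    exact (hDM d hd).2 h3
  · -- an element normalising `⟨c⟩`
    have h1 : ∀ n ∈ M, (y * n) * s * (y * n)⁻¹ * (s ^ k)⁻¹ = 1 := by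
      intro n hn
      have h2 : y * n ∈ closure ({s, y * n} : Set Γ) := subset_closure (by simp)
      have h3 : s ∈ closure ({s, y * n} : Set Γ) := subset_closure (by simp)
      refine hbot n hn _ (mul_mem (mul_mem (mul_mem h2 h3) (inv_mem h2)) (inv_mem (pow_mem h3 k))) ?_
      rw [← hker, map_mul, map_mul, map_mul, map_inv, map_inv, map_pow, map_mul, (hker n).2 hn, mul_one, hψs, hk,
        mul_inv_cancel]
    have h2 := h1 1 M.one_mem
    have h3 := h1 d (hDM d hd).1
    rw [mul_one, mul_inv_eq_one] at h2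
    rw [mul_inv_eq_one, ← h2] at h3
    have h4 : d * s * d⁻¹ = s := by
      have h5 : y * (d * s * d⁻¹) * y⁻¹ = y * s * y⁻¹ := by rw [← h3]; group
      exact mul_left_cancel (mul_right_cancel h5)
    apply (hDM d hd).2
    refine hfix d (hDM d hd).1 ?_
    rw [mul_inv_eq_iff_eq_mul] at h4 ⊢
    exact h4.symm

end Five

section Core

variable {G : Type*} [Group G]

/-- the order of the image modulo a normal subgroup -/
theorem card_map_mk {N A : Subgroup G} [A.Normal] (hAN : A ≤ N) :
    Nat.card (N.map (QuotientGroup.mk' A)) * Nat.card A = Nat.card N := by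
  have h1 := Subgroup.index_ker ((QuotientGroup.mk' A).comp N.subtype)
  have h2 : ((QuotientGroup.mk' A).comp N.subtype).ker = A.subgroupOf N := by
    ext x
    rw [MonoidHom.mem_ker, mem_subgroupOf, MonoidHom.comp_apply]
    exact QuotientGroup.eq_one_iff (x : G)
  have h3 : ((QuotientGroup.mk' A).comp N.subtype).range = N.map (QuotientGroup.mk' A) := by
    rw [MonoidHom.range_comp, Subgroup.range_subtype]
  rw [h2, h3] at h1
  rw [← h1, mul_comm, ← Subgroup.card_mul_index (A.subgroupOf N),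
    Nat.card_congr (Subgroup.subgroupOfEquivOfLe hAN).toEquiv]

/-- **The abstract form.** -/
theorem core1 [Finite G] (N A : Subgroup G) (hNn : N.Normal) (hAn : A.Normal) (hN : Nat.card N = 32)
    (hA : Nat.card A = 2) (hAN : A ≤ N) (hC : ∀ g, (∀ x ∈ N, g * x = x * g) → g ∈ A) (s : G)
    (hs : orderOf s = 5) : TwoGen G := by
  classical
  -- the central involution
  obtain ⟨z, hz1, hzA⟩ : ∃ z, z ≠ 1 ∧ ∀ a, a ∈ A ↔ a = 1 ∨ a = z := by
    obtain ⟨z, hz, hz'⟩ := (Nat.card_eq_two_iff' (1 : A)).1 hA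
    refine ⟨z, fun h => hz (Subtype.ext h), fun a => ⟨fun ha => ?_, ?_⟩⟩
    · by_cases h1 : a = 1
      · exact Or.inl h1
      · right
        exact congrArg Subtype.val (hz' ⟨a, ha⟩ fun h => h1 (congrArg Subtype.val h))
    · rintro (rfl | rfl)
      · exact A.one_mem
      · exact z.2
  have hzm : z ∈ A := (hzA z).2 (Or.inr rfl)
  have hzz : z * z = 1 := by
    rcases (hzA (z * z)).1 (A.mul_mem hzm hzm) with h | h
    · exact h
    · exact absurd (mul_eq_left.1 h) hz1
  have hzc : ∀ g : G, g * z = z * g := by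
    intro g
    rcases (hzA _).1 (hAn.conj_mem z hzm g) with h | h
    · exfalso
      apply hz1
      have : z = g⁻¹ * (g * z * g⁻¹) * g := by group
      rw [this, h]
      group
    · exact mul_inv_eq_iff_eq_mul.1 h
  have hAc : ∀ a ∈ A, ∀ g : G, g * a = a * g := by
    intro a ha g
    rcases (hzA a).1 ha with rfl | rfl
    · rw [mul_one, one_mul]
    · exact hzc g
  -- the quotient
  set π := QuotientGroup.mk' A with hπ
  have hπ1 : ∀ g, π g = 1 ↔ g ∈ A := fun g => QuotientGroup.eq_one_iff g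
  have hπs : Function.Surjective π := QuotientGroup.mk'_surjective A
  set M := N.map π with hM
  have hMm : ∀ g, π g ∈ M ↔ g ∈ N := by
    intro g
    constructor
    · rintro ⟨x, hx, hxg⟩
      have h1 : x⁻¹ * g ∈ A := by rw [← hπ1, map_mul, map_inv, hxg, inv_mul_cancel]
      have h2 := N.mul_mem hx (hAN h1)
      rwa [mul_inv_cancel_left] at h2
    · exact fun h => ⟨g, h, rfl⟩
  have hMn : M.Normal := hNn.map π hπs
  have hMc : Nat.card M = 16 := by
    have h : Nat.card M * Nat.card A = Nat.card N := card_map_mk hAN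
    rw [hA, hN] at h
    omega
  have hs5 : s ^ 5 = 1 := by rw [← hs]; exact pow_orderOf_eq_one s
  have hs5' : π s ^ 5 = 1 := by rw [← map_pow, hs5, map_one]
  have hsA : s ∉ A := by
    intro h
    rcases (hzA s).1 h with rfl | rfl
    · rw [orderOf_one] at hs; omega
    · have := orderOf_dvd_of_pow_eq_one (x := s) (n := 2) (by rw [pow_two, hzz])
      rw [hs] at this
      revert this
      decide
  -- commutators in `A`
  have hcomA : ∀ g x : G, π g * π x = π x * π g → g * x = x * g ∨ g * x = z * (x * g) := by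
    intro g x h
    have h1 : g * x * (x * g)⁻¹ ∈ A := by
      rw [← hπ1, map_mul, map_inv, map_mul, map_mul, h, mul_inv_cancel]
    rcases (hzA _).1 h1 with h2 | h2
    · exact Or.inl (mul_inv_eq_one.1 h2)
    · exact Or.inr (mul_inv_eq_iff_eq_mul.1 h2)
  -- `s` acts without fixed points
  have hfix : ∀ x ∈ M, π s * x * (π s)⁻¹ = x → x = 1 := by
    intro m hm hm'
    by_contra hm1
    have hW : M ⊓ centralizer ({π s} : Set (G ⧸ A)) = M := by
      have h1 : 5 ∣ ((M : Set (G ⧸ A)) \ ((M ⊓ centralizer ({π s} : Set (G ⧸ A)) : Subgroup (G ⧸ A)) : Set (G ⧸ A))).ncard := by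
        refine dvd5 hs5' _ ?_ ?_
        · rintro x ⟨hx, hx1⟩
          refine ⟨hMn.conj_mem x hx _, fun h => hx1 ?_⟩
          obtain ⟨-, h2⟩ := mem_inf.1 h
          refine mem_inf.2 ⟨hx, ?_⟩
          rw [mem_centralizer_singleton_iff] at h2 ⊢
          have h3 : π s * (π s * x) = π s * (x * π s) := by
            calc π s * (π s * x) = π s * (π s * x * (π s)⁻¹) * π s := by group
              _ = π s * x * (π s)⁻¹ * π s * π s := by rw [← h2]
              _ = π s * (x * π s) := by group
          exact (mul_left_cancel h3).symm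
        · rintro x ⟨hx, hx1⟩ h
          exact hx1 (mem_inf.2 ⟨hx, by
            rw [mem_centralizer_singleton_iff]
            exact (mul_inv_eq_iff_eq_mul.1 h).symm⟩)
      rw [Set.ncard_sdiff (by exact fun x hx => (mem_inf.1 hx).1)] at h1
      rcases card16 hMc inf_le_left h1 with h | h
      · exact h
      · exfalso
        have h2 := Subgroup.eq_bot_of_card_eq _ h
        have h3 : m ∈ M ⊓ centralizer ({π s} : Set (G ⧸ A)) := mem_inf.2 ⟨hm, by
            rw [mem_centralizer_singleton_iff]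
            exact (mul_inv_eq_iff_eq_mul.1 hm').symm⟩
        rw [h2, mem_bot] at h3
        exact hm1 h3
    apply hsA
    apply hC
    intro x hx
    have h1 : π x ∈ M ⊓ centralizer ({π s} : Set (G ⧸ A)) := by rw [hW]; exact ⟨x, hx, rfl⟩
    have h2 := (mem_centralizer_singleton_iff.1 (mem_inf.1 h1).2).symm
    rcases hcomA s x h2 with h3 | h3
    · exact h3
    · have h4 : Commute (s * s) x := by
        show s * s * x = x * (s * s)
        calc s * s * x = s * (s * x) := by group
          _ = s * (z * (x * s)) := by rw [h3]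
          _ = (s * z) * (x * s) := by group
          _ = z * (s * x) * s := by rw [hzc]; group
          _ = z * (z * (x * s)) * s := by rw [h3]
          _ = (z * z) * x * (s * s) := by group
          _ = x * (s * s) := by rw [hzz, one_mul]
      have h5 : (s * s) ^ 3 = s := by
        rw [← pow_two, ← pow_mul, show 2 * 3 = 5 + 1 from rfl, pow_succ, hs5, one_mul]
      have h6 := h4.pow_left 3
      rw [h5] at h6
      exact h6
  -- `M` is elementary abelian
  have hMab : ∀ x ∈ M, ∀ y ∈ M, x * y = y * x := by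
    have hP : IsPGroup 2 M := IsPGroup.of_card (n := 4) (by rw [hMc]; norm_num)
    have : Nontrivial M := Finite.one_lt_card_iff_nontrivial.1 (by rw [hMc]; norm_num)
    have : Fact (Nat.Prime 2) := ⟨Nat.prime_two⟩
    have h1 := hP.center_nontrivial
    rcases irr hs5' hMc hfix (W := (center M).map M.subtype) (by
      rintro _ ⟨x, -, rfl⟩
      exact x.2) (by
      rintro _ ⟨x, hx, rfl⟩
      refine ⟨⟨π s * x * (π s)⁻¹, hMn.conj_mem x x.2 _⟩, ?_, rfl⟩
      rw [SetLike.mem_coe, mem_center_iff] at hx ⊢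
      intro g
      have h2 := hx ⟨(π s)⁻¹ * g * π s, by simpa using hMn.conj_mem g g.2 (π s)⁻¹⟩
      have h3 : (π s)⁻¹ * g * π s * x = x * ((π s)⁻¹ * g * π s) := congrArg Subtype.val h2
      apply Subtype.ext
      change (g : G ⧸ A) * (π s * x * (π s)⁻¹) = π s * x * (π s)⁻¹ * g
      calc (g : G ⧸ A) * (π s * x * (π s)⁻¹) = π s * ((π s)⁻¹ * g * π s * x) * (π s)⁻¹ := by group
        _ = π s * (x * ((π s)⁻¹ * g * π s)) * (π s)⁻¹ := by rw [h3]
        _ = π s * x * (π s)⁻¹ * g := by group) with h | h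
    · exfalso
      rw [Subgroup.map_eq_bot_iff_of_injective _ M.subtype_injective] at h
      rw [h] at h1
      exact not_nontrivial _ h1
    · intro x hx y hy
      rw [← h] at hx
      obtain ⟨x, hx, rfl⟩ := hx
      exact (congrArg Subtype.val ((mem_center_iff.1 hx) ⟨y, hy⟩)).symm
  have hM2 : ∀ x ∈ M, x * x = 1 := by
    let W : Subgroup (G ⧸ A) :=
      { carrier := {x | x ∈ M ∧ x * x = 1}
        mul_mem' := by
          rintro a b ⟨ha, ha'⟩ ⟨hb, hb'⟩
          refine ⟨M.mul_mem ha hb, ?_⟩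
          calc a * b * (a * b) = a * (b * a) * b := by group
            _ = a * (a * b) * b := by rw [hMab b hb a ha]
            _ = (a * a) * (b * b) := by group
            _ = 1 := by rw [ha', hb', one_mul]
        one_mem' := ⟨M.one_mem, one_mul 1⟩
        inv_mem' := by
          rintro a ⟨ha, ha'⟩
          refine ⟨M.inv_mem ha, ?_⟩
          rw [← mul_inv_rev, ha', inv_one] }
    rcases irr hs5' hMc hfix (W := W) (fun x hx => hx.1) (fun x hx => ⟨hMn.conj_mem _ hx.1 _, by
        calc π s * x * (π s)⁻¹ * (π s * x * (π s)⁻¹) = π s * (x * x) * (π s)⁻¹ := by group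
          _ = 1 := by rw [hx.2]; group⟩) with h | h
    · exfalso
      obtain ⟨w, hw⟩ := exists_prime_orderOf_dvd_card' (G := M) 2 (by rw [hMc]; norm_num)
      have h1 : (w : G ⧸ A) ∈ W := ⟨w.2, by
        have h2 : w * w = 1 := by rw [← pow_two, ← hw, pow_orderOf_eq_one]
        exact congrArg Subtype.val h2⟩
      rw [h, mem_bot] at h1
      have h2 : w = 1 := Subtype.ext h1
      rw [h2, orderOf_one] at hw
      omega
    · intro x hx
      rw [← h] at hx
      exact hx.2
  -- commutators and squares in `N`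
  have hcomN : ∀ x ∈ N, ∀ y ∈ N, x * y = y * x ∨ x * y = z * (y * x) := fun x hx y hy =>
    hcomA x y (hMab _ ⟨x, hx, rfl⟩ _ ⟨y, hy, rfl⟩)
  have hsq : ∀ x ∈ N, x * x = 1 ∨ x * x = z := by
    intro x hx
    have h1 := hM2 _ ⟨x, hx, rfl⟩
    exact (hzA _).1 ((hπ1 _).1 (by rw [map_mul]; exact h1))
  have hNA : ¬ N ≤ A := by
    intro h
    have := Subgroup.card_le_of_le h
    omega
  have hnab : ¬ ∀ x ∈ N, ∀ y ∈ N, x * y = y * x := fun h => hNA fun x hx => hC x fun y hy => h x hx y hy
  obtain ⟨x₀, hx₀, hx₀A⟩ := SetLike.not_le_iff_exists.1 hNA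
  -- the invariant sets
  let D : G → Set (G ⧸ A) := fun a => {m | m ∈ M ∧ m ≠ 1 ∧ ∃ x, π x = m ∧ x * x = a}
  have hDinv : ∀ a, (∀ g : G, g * a = a * g) → ∀ g : G ⧸ A, ∀ m ∈ D a, g * m * g⁻¹ ∈ D a := by
    rintro a ha g m ⟨h1, h2, x, rfl, h3⟩
    obtain ⟨g, rfl⟩ := hπs g
    refine ⟨hMn.conj_mem _ h1 _, fun h => h2 ?_, g * x * g⁻¹, by rw [map_mul, map_mul, map_inv], ?_⟩
    · have h4 : π x = (π g)⁻¹ * (π g * π x * (π g)⁻¹) * π g := by group
      rw [h4, h]
      group
    · calc g * x * g⁻¹ * (g * x * g⁻¹) = g * (x * x) * g⁻¹ := by group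
        _ = a := by rw [h3, ha]; group
  have hD5 : ∀ a, (∀ g : G, g * a = a * g) → 5 ∣ (D a).ncard := fun a ha =>
    dvd5 hs5' _ (hDinv a ha _) fun m hm h => hm.2.1 (hfix m hm.1 h)
  have hD1 := hD5 1 (fun g => by rw [mul_one, one_mul])
  have hDz := hD5 z hzc
  have hDsum : (D 1).ncard + (D z).ncard = 15 := by
    rw [← Set.ncard_union_eq]
    · have h1 : D 1 ∪ D z = (M : Set (G ⧸ A)) \ {1} := by
        ext m
        constructor
        · rintro (⟨h1, h2, -⟩ | ⟨h1, h2, -⟩) <;> exact ⟨h1, h2⟩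
        · rintro ⟨⟨x, hx, rfl⟩, h2⟩
          rcases hsq x hx with h | h
          · exact Or.inl ⟨⟨x, hx, rfl⟩, h2, x, rfl, h⟩
          · exact Or.inr ⟨⟨x, hx, rfl⟩, h2, x, rfl, h⟩
      rw [h1, Set.ncard_sdiff_singleton_of_mem M.one_mem]
      have h2 : (M : Set (G ⧸ A)).ncard = Nat.card M := rfl
      rw [h2, hMc]
    · rw [Set.disjoint_left]
      rintro _ ⟨-, -, x, rfl, h1⟩ ⟨-, -, y, hy, h2⟩
      have h3 : y * x⁻¹ ∈ A := by rw [← hπ1, map_mul, map_inv, hy, mul_inv_cancel]
      rcases (hzA _).1 h3 with h4 | h4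
      · rw [mul_inv_eq_one] at h4
        rw [h4, h1] at h2
        exact hz1 h2.symm
      · rw [mul_inv_eq_iff_eq_mul] at h4
        apply hz1
        rw [← h2, h4]
        calc z * x * (z * x) = z * (x * z) * x := by group
          _ = (z * z) * (x * x) := by rw [hzc]; group
          _ = 1 := by rw [hzz, h1, one_mul]
  have hDne : (D 1).ncard ≠ 0 := by
    intro h0
    rw [Set.ncard_eq_zero] at h0
    have hno : ∀ x ∈ N, x ∉ A → x * x = z := by
      intro x hx hxA
      rcases hsq x hx with h | h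
      · exfalso
        have h1 : π x ∈ D 1 := ⟨⟨x, hx, rfl⟩, fun h => hxA ((hπ1 x).1 h), x, rfl, h⟩
        rw [h0] at h1
        exact h1
      · exact h
    have hCc : 16 ≤ ((N ⊓ centralizer ({x₀} : Set G) : Subgroup G) : Set G).ncard := by
      by_cases hu : ∃ u ∈ N, u * x₀ ≠ x₀ * u
      · obtain ⟨u, hu, hu'⟩ := hu
        have hu'' := (hcomN u hu x₀ hx₀).resolve_left hu'
        have h1 : (N : Set G) ⊆ ((N ⊓ centralizer ({x₀} : Set G) : Subgroup G) : Set G) ∪
            (fun w => u * w) '' ((N ⊓ centralizer ({x₀} : Set G) : Subgroup G) : Set G) := by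
          intro n hn
          by_cases h2 : n * x₀ = x₀ * n
          · exact Or.inl (mem_inf.2 ⟨hn, by rw [mem_centralizer_singleton_iff]; exact h2⟩)
          · right
            have h3 := (hcomN n hn x₀ hx₀).resolve_left h2
            refine ⟨u⁻¹ * n, mem_inf.2 ⟨N.mul_mem (N.inv_mem hu) hn, ?_⟩, by simp⟩
            rw [mem_centralizer_singleton_iff]
            have h4 : u⁻¹ * (z * x₀) = x₀ * u⁻¹ := by
              have h5 : u⁻¹ * (u * x₀) * u⁻¹ = u⁻¹ * (z * (x₀ * u)) * u⁻¹ := by rw [hu'']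
              calc u⁻¹ * (z * x₀) = u⁻¹ * (z * (x₀ * u)) * u⁻¹ := by group
                _ = u⁻¹ * (u * x₀) * u⁻¹ := h5.symm
                _ = x₀ * u⁻¹ := by group
            calc u⁻¹ * n * x₀ = u⁻¹ * (n * x₀) := by group
              _ = u⁻¹ * (z * x₀) * n := by rw [h3]; group
              _ = x₀ * (u⁻¹ * n) := by rw [h4]; group
        have h2 := Set.ncard_le_ncard h1 (Set.toFinite _)
        have h3 := Set.ncard_union_le ((N ⊓ centralizer ({x₀} : Set G) : Subgroup G) : Set G)
          ((fun w => u * w) '' ((N ⊓ centralizer ({x₀} : Set G) : Subgroup G) : Set G))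
        have h4 := Set.ncard_image_le (f := fun w => u * w)
          (Set.toFinite ((N ⊓ centralizer ({x₀} : Set G) : Subgroup G) : Set G))
        have h5 : (N : Set G).ncard = 32 := hN
        omega
      · push Not at hu
        have h1 : N ⊓ centralizer ({x₀} : Set G) = N := inf_eq_left.2 fun n hn => by
          rw [mem_centralizer_singleton_iff]; exact hu n hn
        rw [h1]
        have h5 : (N : Set G).ncard = 32 := hN
        omega
    have h4 : ({1, z, x₀, z * x₀} : Set G).ncard ≤ 4 := by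
      have h1 := Set.ncard_insert_le 1 ({z, x₀, z * x₀} : Set G)
      have h2 := Set.ncard_insert_le z ({x₀, z * x₀} : Set G)
      have h3 := Set.ncard_insert_le x₀ ({z * x₀} : Set G)
      rw [Set.ncard_singleton] at h3
      omega
    obtain ⟨y, hy, hy'⟩ := Set.exists_mem_notMem_of_ncard_lt_ncard (lt_of_le_of_lt h4
      (lt_of_lt_of_le (by norm_num : 4 < 16) hCc))
    obtain ⟨hyN, hyx⟩ := mem_inf.1 hy
    rw [mem_centralizer_singleton_iff] at hyx
    simp only [Set.mem_insert_iff, Set.mem_singleton_iff, not_or] at hy'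
    obtain ⟨hy1, hyz, hyx0, hyzx⟩ := hy'
    have hyA : y ∉ A := fun h => by rcases (hzA y).1 h with h | h <;> contradiction
    have hxx := hno x₀ hx₀ hx₀A
    have hyy := hno y hyN hyA
    have hxyA : x₀ * y ∉ A := by
      intro h
      have h1 : x₀ * (x₀ * y) = z * y := by rw [← mul_assoc, hxx]
      rcases (hzA _).1 h with h2 | h2
      · rw [h2, mul_one] at h1
        apply hyzx
        rw [h1, ← mul_assoc, hzz, one_mul]
      · rw [h2, hzc] at h1
        exact hyx0 (mul_left_cancel h1).symm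
    have h5 := hno (x₀ * y) (N.mul_mem hx₀ hyN) hxyA
    apply hz1
    calc z = x₀ * y * (x₀ * y) := h5.symm
      _ = x₀ * (y * x₀) * y := by group
      _ = (x₀ * x₀) * (y * y) := by rw [hyx]; group
      _ = 1 := by rw [hxx, hyy, hzz]
  have hDne' : (D 1).ncard ≠ 15 := by
    intro h15
    have h0 : (D z).ncard = 0 := by omega
    rw [Set.ncard_eq_zero] at h0
    have hall : ∀ x ∈ N, x * x = 1 := by
      intro x hx
      by_cases hxA : x ∈ A
      · rcases (hzA x).1 hxA with rfl | rfl
        · rw [mul_one]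
        · exact hzz
      · rcases hsq x hx with h | h
        · exact h
        · exfalso
          have h1 : π x ∈ D z := ⟨⟨x, hx, rfl⟩, fun h => hxA ((hπ1 x).1 h), x, rfl, h⟩
          rw [h0] at h1
          exact h1
    apply hnab
    intro x hx y hy
    have h1 := hall (x * y) (N.mul_mem hx hy)
    have h2 := hall x hx
    have h3 := hall y hy
    calc x * y = x * (x * y * (x * y)) * y := by rw [h1, mul_one]
      _ = (x * x) * y * x * (y * y) := by group
      _ = y * x := by rw [h2, h3]; group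
  have hDa : ∃ a, (∀ g : G, g * a = a * g) ∧ (D a).ncard = 5 := by
    obtain ⟨k, hk⟩ := hD1
    obtain ⟨l, hl⟩ := hDz
    have h1 : k = 1 ∨ l = 1 := by omega
    rcases h1 with rfl | rfl
    · exact ⟨1, fun g => by rw [mul_one, one_mul], hk⟩
    · exact ⟨z, hzc, hl⟩
  obtain ⟨a, ha, haD⟩ := hDa
  -- the centraliser of `M`
  have hCM : ∀ g : G ⧸ A, (∀ x ∈ M, g * x = x * g) → g ∈ M := by
    let xx : Fin 4 → G := fun i => s ^ (i : ℕ) * x₀ * (s ^ (i : ℕ))⁻¹
    have hxx : ∀ i, xx i ∈ N := fun i => hNn.conj_mem _ hx₀ _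
    -- the conjugates generate `M`
    have hgen : closure (Set.range fun i => π (xx i)) = M := by
      have h0 : π x₀ ∈ M := ⟨x₀, hx₀, rfl⟩
      have hcm : ∀ n : ℕ, π s ^ n * π x₀ * (π s ^ n)⁻¹ ∈ M := fun n => hMn.conj_mem _ h0 _
      have hW1 : closure (Set.range fun i => π (xx i)) ≤ M := by
        rw [closure_le]
        rintro _ ⟨i, rfl⟩
        exact ⟨_, hxx i, rfl⟩
      have hmem : ∀ n : ℕ, n < 4 → π s ^ n * π x₀ * (π s ^ n)⁻¹ ∈ closure (Set.range fun i => π (xx i)) := by
        intro n hn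
        refine subset_closure ⟨⟨n, hn⟩, ?_⟩
        change π (s ^ n * x₀ * (s ^ n)⁻¹) = _
        rw [map_mul, map_mul, map_inv, map_pow]
      have hmem4 : π s ^ 4 * π x₀ * (π s ^ 4)⁻¹ ∈ closure (Set.range fun i => π (xx i)) := by
        set m : ℕ → G ⧸ A := fun n => π s ^ n * π x₀ * (π s ^ n)⁻¹ with hm
        have hconj : ∀ n, π s * m n * (π s)⁻¹ = m (n + 1) := by
          intro n
          simp only [hm]
          rw [pow_succ']
          group
        have hm5 : m 5 = m 0 := by
          simp only [hm]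
          rw [hs5', pow_zero]
        have hprod : m 0 * m 1 * m 2 * m 3 * m 4 = 1 := by
          apply hfix
          · exact M.mul_mem (M.mul_mem (M.mul_mem (M.mul_mem (hcm 0) (hcm 1)) (hcm 2)) (hcm 3)) (hcm 4)
          · calc π s * (m 0 * m 1 * m 2 * m 3 * m 4) * (π s)⁻¹
                = (π s * m 0 * (π s)⁻¹) * (π s * m 1 * (π s)⁻¹) * (π s * m 2 * (π s)⁻¹) *
                    (π s * m 3 * (π s)⁻¹) * (π s * m 4 * (π s)⁻¹) := by group
              _ = (m 1 * m 2 * m 3 * m 4) * m 0 := by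
                rw [hconj, hconj, hconj, hconj, hconj, hm5]
              _ = m 0 * (m 1 * m 2 * m 3 * m 4) := hMab _ (M.mul_mem (M.mul_mem (M.mul_mem (hcm 1) (hcm 2)) (hcm 3))
                (hcm 4)) _ (hcm 0)
              _ = m 0 * m 1 * m 2 * m 3 * m 4 := by group
        have h1 : m 4 = (m 0 * m 1 * m 2 * m 3)⁻¹ := by
          rw [eq_inv_iff_mul_eq_one, hMab _ (hcm 4) _ (M.mul_mem (M.mul_mem (M.mul_mem (hcm 0) (hcm 1)) (hcm 2))
            (hcm 3))]
          exact hprod
        change m 4 ∈ _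
        rw [h1]
        exact inv_mem (mul_mem (mul_mem (mul_mem (hmem 0 (by norm_num)) (hmem 1 (by norm_num)))
          (hmem 2 (by norm_num))) (hmem 3 (by norm_num)))
      rcases irr hs5' hMc hfix hW1 (by
        have h3 : closure (Set.range fun i => π (xx i)) ≤
            (closure (Set.range fun i => π (xx i))).comap (MulAut.conj (π s)).toMonoidHom := by
          rw [closure_le]
          rintro _ ⟨i, rfl⟩
          rw [SetLike.mem_coe, mem_comap]
          change π s * π (s ^ (i : ℕ) * x₀ * (s ^ (i : ℕ))⁻¹) * (π s)⁻¹ ∈ _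
          have h4 : π s * π (s ^ (i : ℕ) * x₀ * (s ^ (i : ℕ))⁻¹) * (π s)⁻¹ =
              π s ^ ((i : ℕ) + 1) * π x₀ * (π s ^ ((i : ℕ) + 1))⁻¹ := by
            rw [map_mul, map_mul, map_inv, map_pow, pow_succ']
            group
          rw [h4]
          have h5 := i.2
          by_cases h6 : (i : ℕ) + 1 < 4
          · exact hmem _ h6
          · have h7 : (i : ℕ) + 1 = 4 := by omega
            rw [h7]
            exact hmem4
        exact fun x hx => h3 hx) with h | h
      · exfalso
        have h1 := hmem 0 (by norm_num)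
        rw [h, mem_bot, pow_zero, inv_one, mul_one, one_mul] at h1
        exact hx₀A ((hπ1 _).1 h1)
      · exact h
    set K := centralizer (M : Set (G ⧸ A)) with hK
    have hKm : ∀ k, k ∈ K ↔ ∀ x ∈ M, k * x = x * k := by
      intro k
      rw [hK, mem_centralizer_iff]
      exact ⟨fun h x hx => (h x hx).symm, fun h x hx => (h x hx).symm⟩
    have hMK : M ≤ K := fun x hx => (hKm x).2 fun y hy => hMab x hx y hy
    let F : K → (Fin 4 → Bool) := fun k i => decide ((k : G ⧸ A).out * xx i = xx i * (k : G ⧸ A).out)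
    have hout : ∀ k : G ⧸ A, π k.out = k := fun k => QuotientGroup.out_eq' k
    have hF : Function.Injective F := by
      intro k l hkl
      have hcomm : ∀ k ∈ K, ∀ i, k.out * xx i = xx i * k.out ∨ k.out * xx i = z * (xx i * k.out) := by
        intro k hk i
        apply hcomA
        rw [hout]
        exact (hKm k).1 hk _ ⟨_, hxx i, rfl⟩
      set g := (k : G ⧸ A).out with hg
      set h := (l : G ⧸ A).out with hh
      have h1 : ∀ i, g⁻¹ * h * xx i = xx i * (g⁻¹ * h) := by
        intro i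
        have h2 : (g * xx i = xx i * g) ↔ (h * xx i = xx i * h) := by
          have := congrFun hkl i
          simpa only [F, decide_eq_decide] using this
        have h3 : g * xx i = xx i * g ∨ g * xx i = z * (xx i * g) := hcomm k k.2 i
        have h4 : h * xx i = xx i * h ∨ h * xx i = z * (xx i * h) := hcomm l l.2 i
        by_cases h5 : g * xx i = xx i * g
        · have h6 := h2.1 h5
          calc g⁻¹ * h * xx i = g⁻¹ * (h * xx i) := by group
            _ = g⁻¹ * (xx i * g) * (g⁻¹ * h) := by rw [h6]; group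
            _ = xx i * (g⁻¹ * h) := by rw [← h5]; group
        · have h7 : ¬ h * xx i = xx i * h := fun h => h5 (h2.2 h)
          have h8 := h3.resolve_left h5
          have h9 := h4.resolve_left h7
          calc g⁻¹ * h * xx i = g⁻¹ * (h * xx i) := by group
            _ = g⁻¹ * (z * (xx i * g)) * (g⁻¹ * h) := by rw [h9]; group
            _ = xx i * (g⁻¹ * h) := by rw [← h8]; group
      have h2 : g⁻¹ * h ∈ A := by
        apply hC
        have h3 : M ≤ (centralizer ({g⁻¹ * h} : Set G)).map π := by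
          rw [← hgen, closure_le]
          rintro _ ⟨i, rfl⟩
          exact ⟨xx i, by rw [SetLike.mem_coe, mem_centralizer_singleton_iff]; exact (h1 i).symm, rfl⟩
        rw [hM, Subgroup.map_le_map_iff, hπ, QuotientGroup.ker_mk'] at h3
        have h4 : A ≤ centralizer ({g⁻¹ * h} : Set G) := by
          intro a ha
          rw [mem_centralizer_singleton_iff]
          exact (hAc a ha _).symm
        rw [sup_eq_left.2 h4] at h3
        intro x hx
        exact (mem_centralizer_singleton_iff.1 (h3 hx)).symm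
      apply Subtype.ext
      rw [← hout k, ← hout l]
      have h3 := (hπ1 _).2 h2
      rw [map_mul, map_inv, inv_mul_eq_one] at h3
      exact h3
    have h1 : Nat.card K ≤ 16 := by
      have h2 := Nat.card_le_card_of_injective F hF
      rwa [Nat.card_eq_fintype_card (α := Fin 4 → Bool), Fintype.card_fun, Fintype.card_fin, Fintype.card_bool,
        show 2 ^ 4 = 16 from rfl] at h2
    have h2 : M = K := Subgroup.eq_of_le_of_card_ge hMK (by rw [hMc]; exact h1)
    intro g hg
    rw [h2]
    exact (hKm g).2 hg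
  -- the conclusion
  obtain ⟨x, y, hxy⟩ := core2 M hMn hMc hM2 hCM hs5' hfix (D a) haD (fun m hm => ⟨hm.1, hm.2.1⟩) (hDinv a ha)
  obtain ⟨x, rfl⟩ := hπs x
  obtain ⟨y, rfl⟩ := hπs y
  refine ⟨x, y, ?_⟩
  set H := closure ({x, y} : Set G) with hH
  have hHmap : H.map π = ⊤ := by rw [hH, MonoidHom.map_closure, Set.image_pair]; exact hxy
  have hHA : ∀ g : G, ∃ h ∈ H, ∃ b ∈ A, g = h * b := by
    intro g
    have h1 : π g ∈ H.map π := by rw [hHmap]; exact mem_top _
    obtain ⟨h, hh, hhg⟩ := h1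
    refine ⟨h, hh, h⁻¹ * g, ?_, by group⟩
    rw [← hπ1, map_mul, map_inv, hhg, inv_mul_cancel]
  have hzH : z ∈ H := by
    push Not at hnab
    obtain ⟨u, hu, v, hv, huv⟩ := hnab
    have h1 := (hcomN u hu v hv).resolve_left huv
    obtain ⟨h, hh, b, hb, rfl⟩ := hHA u
    obtain ⟨k, hk, c, hc, rfl⟩ := hHA v
    have h2 : h * k = z * (k * h) := by
      have h3 : h * b * (k * c) = h * k * (b * c) := by
        calc h * b * (k * c) = h * (b * k) * c := by group
          _ = h * k * (b * c) := by rw [← hAc b hb k]; group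
      have h4 : z * (k * c * (h * b)) = z * (k * h) * (b * c) := by
        calc z * (k * c * (h * b)) = z * (k * (c * h) * b) := by group
          _ = z * (k * h) * (c * b) := by rw [← hAc c hc h]; group
          _ = z * (k * h) * (b * c) := by rw [hAc b hb c]
      rw [h3, h4] at h1
      exact mul_right_cancel h1
    have h3 : z = h * k * (k * h)⁻¹ := by rw [h2]; group
    rw [h3]
    exact mul_mem (mul_mem hh hk) (inv_mem (mul_mem hk hh))
  rw [eq_top_iff]
  intro g _
  obtain ⟨h, hh, b, hb, rfl⟩ := hHA g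
  refine mul_mem hh ?_
  rcases (hzA b).1 hb with rfl | rfl
  · exact one_mem _
  · exact hzH

end Core

/-- **`LinRows.ext32`.** -/
theorem row_ext32 : ∀ (V : Type u) [AddCommGroup V] [Module (ZMod 3) V] [Finite V]
    (G A : Subgroup (V ≃ₗ[ZMod 3] V)), (∀ v w : V, v ≠ 0 → w ≠ 0 → ∃ g ∈ G, g v = w) → MaxAb G A →
    finrank (ZMod 3) V = 4 → Nat.card A ≤ 2 → Nat.card G ∣ 32 * 120 →
    (∃ N ≤ ⁅G, G⁆, Nor G N ∧ Nat.card N = 32) → LGood G := by
  intro V _ _ _ G A htr hA hd hA2 _ hN
  obtain ⟨N, hNG', hNn, hN⟩ := hN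
  have hfin := finite_gl (p := 3) (V := V)
  have hnt : Nontrivial V := Module.nontrivial_of_finrank_pos (R := ZMod 3) (by omega)
  have hNG : N ≤ G := hNG'.trans (Subgroup.commutator_le.2 fun a ha b hb =>
    G.mul_mem (G.mul_mem (G.mul_mem ha hb) (G.inv_mem ha)) (G.inv_mem hb))
  -- `A` is central
  have hAc : ∀ a ∈ A, ∀ g ∈ G, g * a = a * g := by
    intro a ha g hg
    by_contra hne
    have h1 : g * a * g⁻¹ ∈ A := hA.nor g hg a ha
    have h2 : g * a * g⁻¹ ≠ a := fun h => hne (mul_inv_eq_iff_eq_mul.1 h)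
    have ha1 : a ≠ 1 := by
      rintro rfl
      exact hne (by rw [mul_one, one_mul])
    have h3 : g * a * g⁻¹ ≠ 1 := by
      intro h
      apply ha1
      have : a = g⁻¹ * (g * a * g⁻¹) * g := by group
      rw [this, h]
      group
    have h4 : ({1, a, g * a * g⁻¹} : Set (V ≃ₗ[ZMod 3] V)) ⊆ A := by
      rintro x (rfl | rfl | rfl)
      · exact A.one_mem
      · exact ha
      · exact h1
    have h5 := Set.ncard_le_ncard h4 (Set.toFinite _)
    rw [Set.ncard_eq_three.2 ⟨1, a, _, ha1.symm, h3.symm, h2.symm, rfl⟩] at h5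
    have h6 : (A : Set (V ≃ₗ[ZMod 3] V)).ncard = Nat.card A := rfl
    omega
  have hAc' : ∀ g ∈ G, g ∈ centralizer (A : Set (V ≃ₗ[ZMod 3] V)) := by
    intro g hg
    rw [mem_centralizer_iff]
    exact fun a ha => (hAc a ha g hg).symm
  -- `N` is not abelian
  have hna : ¬ Com N := by
    intro hc
    have h1 : N ⊔ A = A := by
      refine hA.max _ (sup_le hNG hA.le) (hNn.sup hA.nor) ?_ le_sup_right
      intro x hx y hy
      obtain ⟨n, hn, a, ha, rfl⟩ := exists_mul_of_mem_sup (fun a ha l hl => (hAc a ha l (hNG hl)).symm) hx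
      obtain ⟨n', hn', a', ha', rfl⟩ := exists_mul_of_mem_sup (fun a ha l hl => (hAc a ha l (hNG hl)).symm) hy
      have e1 := hAc a ha n' (hNG hn')
      have e2 := hAc a' ha' n (hNG hn)
      have e3 := hA.com a ha a' ha'
      calc n * a * (n' * a') = n * (a * n') * a' := by group
        _ = (n * n') * (a * a') := by rw [← e1]; group
        _ = (n' * n) * (a' * a) := by rw [hc n hn n' hn', e3]
        _ = n' * (n * a') * a := by group
        _ = n' * a' * (n * a) := by rw [e2]; group
    have h2 := Subgroup.card_le_of_le (sup_eq_right.1 h1)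
    omega
  have hNA : N ≤ centralizer (A : Set (V ≃ₗ[ZMod 3] V)) := fun n hn => hAc' n (hNG hn)
  have hcent := hA.centralizer_eq htr hNG hNn hna hNA
  -- the centre of `N`
  have hZA : N ⊓ centralizer (N : Set (V ≃ₗ[ZMod 3] V)) ≤ A := by
    rw [← hcent]
    exact inf_le_inf_right _ hNG
  have hZ1 : ∃ z ∈ N, z ≠ 1 ∧ z ∈ A := by
    have hP : IsPGroup 2 N := IsPGroup.of_card (n := 5) (by rw [hN]; norm_num)
    have : Nontrivial N := Finite.one_lt_card_iff_nontrivial.1 (by rw [hN]; norm_num)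
    have : Fact (Nat.Prime 2) := ⟨Nat.prime_two⟩
    have h1 := hP.center_nontrivial
    obtain ⟨z, hz⟩ := exists_ne (1 : center N)
    refine ⟨z, z.1.2, fun h => hz (Subtype.ext (Subtype.ext h)), hZA (mem_inf.2 ⟨z.1.2, ?_⟩)⟩
    rw [mem_centralizer_iff]
    intro n hn
    exact congrArg Subtype.val (mem_center_iff.1 z.2 ⟨n, hn⟩)
  obtain ⟨z, hzN, hz1, hzA⟩ := hZ1
  have hzsub : ({1, z} : Set (V ≃ₗ[ZMod 3] V)) ⊆ A := by
    rintro x (rfl | rfl)
    · exact A.one_mem
    · exact hzA
  have hncA : (A : Set (V ≃ₗ[ZMod 3] V)).ncard = Nat.card A := rfl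
  have hcA : Nat.card A = 2 := by
    have h5 := Set.ncard_le_ncard hzsub (Set.toFinite _)
    rw [Set.ncard_pair hz1.symm] at h5
    omega
  have hAeq : ({1, z} : Set (V ≃ₗ[ZMod 3] V)) = A :=
    Set.eq_of_subset_of_ncard_le hzsub (by rw [Set.ncard_pair hz1.symm, hncA, hcA]) (Set.toFinite _)
  have hAN : A ≤ N := by
    intro a ha
    have h1 : a ∈ ({1, z} : Set (V ≃ₗ[ZMod 3] V)) := by rw [hAeq]; exact ha
    rcases h1 with rfl | h1
    · exact N.one_mem
    · rw [Set.mem_singleton_iff.1 h1]; exact hzN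
  have hzz : z * z = 1 := by
    have h1 : z * z ∈ ({1, z} : Set (V ≃ₗ[ZMod 3] V)) := by rw [hAeq]; exact A.mul_mem hzA hzA
    rcases h1 with h1 | h1
    · exact h1
    · exact absurd (mul_eq_left.1 h1) hz1
  -- `z = -1`
  have hzneg : ∀ v : V, z v = -v := by
    have h1 : ∀ v : V, z v = v → v = 0 := by
      intro v hv
      by_contra hv0
      apply hz1
      ext w
      by_cases hw : w = 0
      · rw [hw]; simp
      obtain ⟨g, hg, rfl⟩ := htr v w hv0 hw
      have h2 : (z * g) v = (g * z) v := by rw [hAc z hzA g hg]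
      change z (g v) = g (z v) at h2
      rw [h2, hv]
      rfl
    intro v
    have h2 : z (z v) = v := by
      change (z * z) v = v
      rw [hzz]
      rfl
    have h3 := h1 (z v + v) (by rw [map_add, h2, add_comm])
    exact eq_neg_of_add_eq_zero_left h3
  -- an element of order 5
  have hcV : Nat.card V = 81 := by
    rw [Module.natCard_eq_pow_finrank (K := ZMod 3), hd, Nat.card_zmod]
    norm_num
  have h5 : 5 ∣ Nat.card G := by
    refine Dvd.dvd.trans ?_ (card_sub_one_dvd htr)
    rw [hcV]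
    norm_num
  have : Fact (Nat.Prime 5) := ⟨by norm_num⟩
  obtain ⟨s, hs⟩ := exists_prime_orderOf_dvd_card' (G := G) 5 h5
  refine ⟨?_, ?_⟩
  · refine core1 (N.subgroupOf G) (A.subgroupOf G) ⟨?_⟩ ⟨?_⟩ ?_ ?_ ?_ ?_ s hs
    · intro n hn g
      exact hNn g g.2 n hn
    · intro n hn g
      exact hA.nor g g.2 n hn
    · rw [Nat.card_congr (subgroupOfEquivOfLe hNG).toEquiv, hN]
    · rw [Nat.card_congr (subgroupOfEquivOfLe hA.le).toEquiv, hcA]
    · intro x hx
      exact hAN hx
    · intro g hg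
      rw [mem_subgroupOf, ← hcent]
      refine mem_inf.2 ⟨g.2, ?_⟩
      rw [mem_centralizer_iff]
      intro n hn
      exact (congrArg Subtype.val (hg ⟨n, hNG hn⟩ hn)).symm
  · refine Cfsg.Agent.H490.Der.small_of_neg (p := 3) (by norm_num) (by norm_num)
      (fun v => ZModModule.char_nsmul_eq_zero 3 v) (ε := ⟨z, hA.le hzA⟩) ?_ ?_ hzneg
    · intro g
      exact Subtype.ext (hAc z hzA g g.2).symm
    · rw [pow_two]
      exact Subtype.ext hzz

end Cfsg.Agent.H487.Gen.Ext
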