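import Cfsg.Agent.H487.Gen.Outer
import Cfsg.Agent.H891.Gen.Defs
import Cfsg.Agent.H679.SporOut
import Cfsg.Agent.H994.TwoGen.M11
import Cfsg.Agent.H994.TwoGen.M12
import Cfsg.Agent.H994.TwoGen.M22
import Cfsg.Agent.H994.TwoGen.M23
import Cfsg.Agent.H994.TwoGen.M24
import Cfsg.Agent.H994.TwoGen.HS
import Cfsg.Agent.H136.Gen2.Co3

/-!
# TEAM GEN, piece J: the sporadic rows of `ASRows` (helper487)

The full automorphism groups of `M12`, `M22`, `HS` are 2-generated: for `t = X` (one of the two elements of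
helper994) and an outer involution `z` the group is generated by `t` and `z t z`.
-/

set_option autoImplicit false

namespace Cfsg.Agent.H487.Gen.SporRows

open Cfsg Cfsg.Agent.H440.TwoGen Cfsg.Agent.H384.TwoTrans Subgroup

universe u v

variable {G : Type u} [Group G] {T : Subgroup G}

/-! ### no outer automorphisms -/

theorem m11 (hT : T.Normal) (hC : centralizer (T : Set G) = ⊥) (h : Spor.IsoM11 T) : TwoGen G := by
  have hfin : Finite T := by
    obtain ⟨e⟩ := h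
    exact Finite.of_equiv _ e.symm.toEquiv
  refine twoGen_of_inner hT hC (MulEquiv.refl T) (fun φ => ?_) (Cfsg.Agent.H994.TwoGen.M11.twoGen h)
  obtain ⟨g, hg⟩ := Cfsg.Agent.UGT.End.MEleven.inner h φ
  exact ⟨g, hg.symm⟩

theorem m23 (hT : T.Normal) (hC : centralizer (T : Set G) = ⊥) (h : Spor.IsoM23 T) : TwoGen G := by
  have h2 := Cfsg.Agent.H994.TwoGen.M23.twoGen h
  obtain ⟨e⟩ := h
  refine twoGen_of_inner hT hC e (fun φ => ?_) (TwoGen.of_equiv e h2)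
  obtain ⟨g, hg⟩ := Cfsg.Agent.UGT.MTwentyThree.Aut.exists_conj φ
  exact ⟨g, hg.symm⟩

theorem m24 (hT : T.Normal) (hC : centralizer (T : Set G) = ⊥) (h : Spor.IsoM24 T) : TwoGen G := by
  have h2 := Cfsg.Agent.H994.TwoGen.M24.twoGen h
  obtain ⟨e⟩ := h
  refine twoGen_of_inner hT hC e (fun φ => ?_) (TwoGen.of_equiv e h2)
  obtain ⟨g, hg⟩ := Cfsg.Agent.KFacts.M24Two.Out.exists_conj φ
  exact ⟨g, hg.symm⟩

theorem co3 (hT : T.Normal) (hC : centralizer (T : Set G) = ⊥) (h : Spor.IsoCo3 T) : TwoGen G := by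
  have h2 := Cfsg.Agent.H136.Gen2.Co3.twoGen h
  obtain ⟨e⟩ := h
  refine twoGen_of_inner hT hC (MulEquiv.refl T) (fun φ => ?_) h2
  obtain ⟨g, hg⟩ := Cfsg.Agent.KFacts.Co3.Sheet.inner_of
    (e.trans Cfsg.Agent.SporRec.Co3.Model.equivCo3.symm).symm φ
  exact ⟨g, hg.symm⟩

/-! ### `M22` -/

section m22

open Cfsg.Agent.J4Type.Aut22 (D22 mem_D22_iff M22_le_D22 exists_conj)
open Cfsg.Agent.SporadicA.MathieuRecog (mem_M22_iff)
open Cfsg.Agent.H994.TwoGen.Chain (ew ew_mem)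
open Cfsg.Agent.H994.TwoGen.M22 (X Y X_mem Y_mem closure_eq)

/-- table of `x ↦ -1 / x` -/
def tz22 : List ℕ := [23, 22, 11, 15, 17, 9, 19, 13, 20, 5, 16, 2, 21, 7, 18, 3, 10, 4, 14, 6, 8, 12, 1, 0]

/-- `x ↦ -1 / x` -/
def z22 : Equiv.Perm GolayPt where
  toFun := Cfsg.Agent.J4.M24Hom.fn tz22
  invFun := Cfsg.Agent.J4.M24Hom.fn tz22
  left_inv := by unfold Function.LeftInverse; decide +kernel
  right_inv := by unfold Function.RightInverse Function.LeftInverse; decide +kernel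

theorem z22_mem24 : z22 ∈ M24 :=
  SporadicA.GolayWalk.mem_M24_of_table z22 tz22 rfl (by decide +kernel) (by decide +kernel)

theorem z22_none : z22 none = some 0 := by decide +kernel

theorem z22_zero : z22 (some 0) = none := by decide +kernel

theorem z22_mem : z22 ∈ D22 := (mem_D22_iff _).2 ⟨z22_mem24, Or.inr ⟨z22_none, z22_zero⟩⟩

theorem conj22 {q : Equiv.Perm GolayPt} (hq : q ∈ Spor.M22) {z : Equiv.Perm GolayPt} (hz : z ∈ D22) :
    z * q * z⁻¹ ∈ Spor.M22 := by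
  obtain ⟨h1, h2, h3⟩ := (mem_M22_iff q).1 hq
  obtain ⟨h4, h5⟩ := (mem_D22_iff _).1 (inv_mem hz)
  have h6 : ∀ x, z (z⁻¹ x) = x := fun x => by rw [← Equiv.Perm.mul_apply, mul_inv_cancel]; rfl
  refine (mem_M22_iff _).2 ⟨mul_mem (mul_mem ((mem_D22_iff _).1 hz).1 h1) h4, ?_, ?_⟩
  · rcases h5 with ⟨h5, h7⟩ | ⟨h5, h7⟩
    · rw [Equiv.Perm.mul_apply, Equiv.Perm.mul_apply, h5, h2]
      conv_lhs => rw [← h5]
      exact h6 none
    · rw [Equiv.Perm.mul_apply, Equiv.Perm.mul_apply, h5, h3]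
      conv_lhs => rw [← h5]
      exact h6 none
  · rcases h5 with ⟨h5, h7⟩ | ⟨h5, h7⟩
    · rw [Equiv.Perm.mul_apply, Equiv.Perm.mul_apply, h7, h3]
      conv_lhs => rw [← h7]
      exact h6 (some 0)
    · rw [Equiv.Perm.mul_apply, Equiv.Perm.mul_apply, h7, h2]
      conv_lhs => rw [← h7]
      exact h6 (some 0)

theorem Y22 : Y = ew X (z22 * X * z22⁻¹) [1, 2, 2, 2, 1, 0, 0, 0, 3, 0, 0] := by
  refine Equiv.ext fun i => ?_
  revert i
  decide +kernel

theorem gen22 : closure ({X, z22 * X * z22⁻¹} : Set (Equiv.Perm GolayPt)) = Spor.M22 := by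
  apply le_antisymm
  · rw [closure_le]
    rintro z (rfl | hz)
    · exact X_mem
    · rw [Set.mem_singleton_iff] at hz
      subst hz
      exact conj22 X_mem z22_mem
  · rw [← closure_eq, closure_le]
    rintro z (rfl | hz)
    · exact subset_closure (by simp)
    · rw [Set.mem_singleton_iff] at hz
      rw [hz, Y22]
      exact ew_mem _ _ _

theorem m22 (hT : T.Normal) (hC : centralizer (T : Set G) = ⊥) (h : Spor.IsoM22 T) : TwoGen G := by
  obtain ⟨e⟩ := h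
  refine twoGen_of_conj hT hC Spor.M22 D22 e exists_conj z22 (fun q => ⟨fun h => conj22 h z22_mem, fun h => ?_⟩) ?_ X
    X_mem gen22
  · have h1 := conj22 h (inv_mem z22_mem)
    have h2 : z22⁻¹ * (z22 * q * z22⁻¹) * z22⁻¹⁻¹ = q := by group
    rwa [h2] at h1
  · intro p hp
    obtain ⟨h1, h2 | h2⟩ := (mem_D22_iff _).1 hp
    · exact Or.inl ((mem_M22_iff _).2 ⟨h1, h2⟩)
    · refine Or.inr ((mem_M22_iff _).2 ⟨mul_mem z22_mem24 h1, ?_, ?_⟩)
      · rw [Equiv.Perm.mul_apply, h2.1, z22_zero]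
      · rw [Equiv.Perm.mul_apply, h2.2, z22_none]

end m22

/-! ### `M12` -/

section m12

open Cfsg.Agent.CoThreeStd.OutAut (pPi alpha)
open Cfsg.Agent.OddHalf.Table.OutMTwelve (al mem_or_mem)
open Cfsg.Agent.H994.TwoGen.Chain (ew ew_mem)
open Cfsg.Agent.H994.TwoGen.M12 (X Y X_mem Y_mem closure_eq)

theorem Y12 : Y = ew X (pPi * X * pPi⁻¹) [1, 0, 3, 0, 3, 0, 1, 1, 0, 3, 3, 3, 0] := by
  refine Equiv.ext fun i => ?_
  revert i
  decide +kernel

theorem gen12 : closure ({X, pPi * X * pPi⁻¹} : Set (Equiv.Perm GolayPt)) = Spor.M12 := by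
  apply le_antisymm
  · rw [closure_le]
    rintro z (rfl | hz)
    · exact X_mem
    · rw [Set.mem_singleton_iff] at hz
      subst hz
      exact Cfsg.Agent.CoThreeStd.OutAut.alpha_mem ⟨X, X_mem⟩
  · rw [← closure_eq, closure_le]
    rintro z (rfl | hz)
    · exact subset_closure (by simp)
    · rw [Set.mem_singleton_iff] at hz
      rw [hz, Y12]
      exact ew_mem _ _ _

theorem m12 (hT : T.Normal) (hC : centralizer (T : Set G) = ⊥) (h : Spor.IsoM12 T) : TwoGen G := by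
  obtain ⟨e⟩ := h
  refine twoGen_of_outer hT hC e al mem_or_mem ⟨X, X_mem⟩ ?_
  apply Subgroup.map_injective Spor.M12.subtype_injective
  rw [MonoidHom.map_closure, Set.image_pair]
  change closure ({X, pPi * X * pPi⁻¹} : Set (Equiv.Perm GolayPt)) = _
  rw [gen12, ← MonoidHom.range_eq_map, Subgroup.range_subtype]

end m12

/-! ### `HS` -/

section hs

open Cfsg.Agent.SporadicA.PermTab Cfsg.Agent.HN.HS100 Cfsg.Agent.HN.AutBound Cfsg.Agent.HN.AutHS Equiv
open Cfsg.Agent.HSType.Letters Cfsg.Agent.H994.TwoGen.Words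

/-- `r` -/
def wX : List ℕ := [10]
/-- `r⁻¹` -/
def wXi : List ℕ := [11]
/-- `Z r Z⁻¹` as a word in the letters -/
def wY : List ℕ := [0, 5, 10, 8, 9, 7, 1, 11, 9, 11, 9, 11, 4]
/-- the inverse word -/
def wYi : List ℕ := [3, 10, 9, 10, 9, 10, 0, 8, 9, 7, 11, 6, 1]

theorem chk_X : chkOne (wX ++ wXi) = true := by decide +kernel
theorem chk_Y : chkOne (wY ++ wYi) = true := by decide +kernel

theorem chk_Z : allB (fun x => Nat.beq (lk tZ (lk tR x)) (evp wY (lk tZ x))) 100 = true := by decide +kernel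

theorem val_Y : Z * pr * Z⁻¹ = val gl wY := by
  rw [mul_inv_eq_iff_eq_mul]
  refine Equiv.ext fun x => Fin.ext ?_
  rw [Perm.mul_apply, Perm.mul_apply]
  change lk tZ (lk tR x) = ((evw wY (Z x) : Fin 100) : ℕ)
  rw [ev_val]
  exact Nat.eq_of_beq_eq_true ((allB_iff _ _).1 chk_Z x x.2)

/-- the group generated by the two elements -/
def HH : Subgroup (Equiv.Perm (Fin 100)) := Subgroup.closure {val gl wX, val gl wY}

theorem mem {w : List ℕ} {k : ℕ} (h : chkOne (expand wX wY wXi wYi w ++ [k]) = true) : gl k ∈ HH :=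
  mem_of_word gl (ev_eq_one chk_X) (ev_eq_one chk_Y) (ev_eq_one h)

theorem mem_0 : gl 0 ∈ HH := mem (w := [1, 0, 0, 3, 3, 3, 0, 3, 3, 2, 3, 2, 2, 2, 1, 0]) (by decide +kernel)
theorem mem_2 : gl 2 ∈ HH := mem (w := [3, 2, 3, 3, 2, 2, 1, 2, 2, 2, 3, 2, 1, 1, 2, 3, 3, 2]) (by decide +kernel)
theorem mem_3 : gl 3 ∈ HH := mem (w := [1, 1, 0, 3, 3, 2, 3, 3, 2, 3, 2, 2, 1, 0, 3, 3]) (by decide +kernel)
theorem mem_5 : gl 5 ∈ HH := mem (w := [1, 2, 3, 3, 2, 2, 1, 2, 2, 3, 3, 3, 2, 1, 1, 0]) (by decide +kernel)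
theorem mem_7 : gl 7 ∈ HH := mem (w := [2, 3, 3, 0, 1, 1, 2, 1, 1, 2, 3, 3, 0, 1, 0]) (by decide +kernel)
theorem mem_9 : gl 9 ∈ HH := mem (w := [2, 1, 0, 1, 0, 3, 0, 1, 2, 1, 2, 2, 1, 2, 3, 2, 3, 0]) (by decide +kernel)
theorem mem_10 : gl 10 ∈ HH := mem (w := [2]) (by decide +kernel)

theorem P_le' : P ≤ HH := by
  rw [P, Subgroup.closure_le]
  rintro _ (rfl | rfl | rfl | rfl | rfl | rfl | rfl)
  · exact mem_0
  · exact mem_2
  · exact mem_3
  · exact mem_5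
  · exact mem_7
  · exact mem_9
  · exact mem_10

theorem HH_le : HH ≤ P := by
  rw [HH, Subgroup.closure_le]
  rintro _ (rfl | rfl)
  · exact ev_mem_P wX (by decide)
  · exact ev_mem_P wY (by decide)

theorem genHS : closure ({pr, Z * pr * Z⁻¹} : Set (Equiv.Perm (Fin 100))) = Q := by
  have h1 : val gl wX = pr := by
    change ([pr] : List (Perm (Fin 100))).prod = pr
    simp
  rw [val_Y, ← h1]
  exact (le_antisymm HH_le P_le').trans P_eq

theorem Z_inv : Z⁻¹ = Z := rfl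

theorem hs (hT : T.Normal) (hC : centralizer (T : Set G) = ⊥) (h : Spor.IsoHS T) : TwoGen G := by
  obtain ⟨e⟩ := h
  obtain ⟨⟨f⟩, -⟩ := nonempty_Q
  have hconj : ∀ q ∈ Q, ∀ z ∈ autG 100 adjA, z * q * z⁻¹ ∈ Q := by
    intro q hq z hz
    obtain ⟨h1, h2⟩ := mem_Q_iff.1 hq
    refine mem_Q_iff.2 ⟨mul_mem (mul_mem hz h1) (inv_mem hz), ?_⟩
    rw [map_mul, map_mul, h2, map_inv, mul_one, mul_inv_cancel]
  refine twoGen_of_conj hT hC Q (autG 100 adjA) (e.trans f.symm) exists_perm Z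
    (fun q => ⟨fun h => hconj q h Z Z_mem, fun h => ?_⟩) ?_ pr pr_mem genHS
  · have h1 := hconj _ h Z⁻¹ (inv_mem Z_mem)
    have h2 : Z⁻¹ * (Z * q * Z⁻¹) * Z⁻¹⁻¹ = q := by group
    rwa [h2] at h1
  · intro p hp
    rcases Int.units_eq_one_or (Perm.sign p) with h1 | h1
    · exact Or.inl (mem_Q_iff.2 ⟨hp, h1⟩)
    · exact Or.inr (mem_Q_iff.2 ⟨mul_mem Z_mem hp, by rw [map_mul, h1, sign_Z]; decide⟩)

end hs

/-! ### the fields of `ASRows` -/

section rows

universe w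

theorem row_m11 : ∀ (G : Type u) (Ω : Type w) [Group G] [MulAction G Ω] (T : Subgroup G), AS G Ω T →
    Cfsg.Spor.IsoM11 T → TwoGen G :=
  fun _ _ _ _ _ A h => m11 A.normal A.cent h

theorem row_m12 : ∀ (G : Type u) (Ω : Type w) [Group G] [MulAction G Ω] (T : Subgroup G), AS G Ω T →
    Cfsg.Spor.IsoM12 T → Nat.card Ω = 12 → TwoGen G :=
  fun _ _ _ _ _ A h _ => m12 A.normal A.cent h

theorem row_m22 : ∀ (G : Type u) (Ω : Type w) [Group G] [MulAction G Ω] (T : Subgroup G), AS G Ω T →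
    Cfsg.Spor.IsoM22 T → Nat.card Ω = 22 → TwoGen G :=
  fun _ _ _ _ _ A h _ => m22 A.normal A.cent h

theorem row_m23 : ∀ (G : Type u) (Ω : Type w) [Group G] [MulAction G Ω] (T : Subgroup G), AS G Ω T →
    Cfsg.Spor.IsoM23 T → Nat.card Ω = 23 → TwoGen G :=
  fun _ _ _ _ _ A h _ => m23 A.normal A.cent h

theorem row_m24 : ∀ (G : Type u) (Ω : Type w) [Group G] [MulAction G Ω] (T : Subgroup G), AS G Ω T →
    Cfsg.Spor.IsoM24 T → Nat.card Ω = 24 → TwoGen G :=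
  fun _ _ _ _ _ A h _ => m24 A.normal A.cent h

theorem row_hs : ∀ (G : Type u) (Ω : Type w) [Group G] [MulAction G Ω] (T : Subgroup G), AS G Ω T →
    Cfsg.Spor.IsoHS T → Nat.card Ω = 176 → TwoGen G :=
  fun _ _ _ _ _ A h _ => hs A.normal A.cent h

theorem row_co3 : ∀ (G : Type u) (Ω : Type w) [Group G] [MulAction G Ω] (T : Subgroup G), AS G Ω T →
    Cfsg.Spor.IsoCo3 T → Nat.card Ω = 276 → TwoGen G :=
  fun _ _ _ _ _ A h _ => co3 A.normal A.cent h

end rows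

end Cfsg.Agent.H487.Gen.SporRows
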