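import Cfsg.Agent.H487.Gen.Asm
import Cfsg.Agent.H487.Gen.SporRows
import Cfsg.Agent.H487.Gen.A67
import Cfsg.Agent.H487.Gen.Ext32
import Cfsg.Agent.H230.GenPslFin
import Cfsg.Agent.H450.GenU.Main
import Cfsg.Agent.H479.GenLin
import Cfsg.Agent.H484.GenSpSix
import Cfsg.Agent.H490.AffL
import Cfsg.Agent.H490.GenSL
import Cfsg.Agent.H491.Gen.Rows
import Cfsg.Agent.H495.Gen.Lin
import Cfsg.Agent.H500.Gen.Semi
import Cfsg.Agent.H500.Gen.SpRow
import Cfsg.Agent.H500.Gen.TwoHom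
import Cfsg.Agent.H791.Gen.Psl2
import Cfsg.Agent.H791.Gen.U33
import Cfsg.Agent.H891.Gen.LinMain
import Cfsg.Agent.H384.TwoTransOf
import Cfsg.Agent.H667.HerFin

/-!
# TEAM GEN: S3565 from the hubs (helper487)

`final` : S3565 from `Rows` (HUB H1), Hering's theorem (`H667.HerFin.Main`), the classification, and the rows
which are still missing.
-/

set_option autoImplicit false

namespace Cfsg.Agent.H487.Gen

open Cfsg.Agent.H440.TwoGen Cfsg.Agent.H384.TwoTrans Cfsg.Agent.H891.Gen Cfsg.Agent.H50.Her MulAction Module Subgroup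

universe u v

/-- The type of `ASRows.alt`. -/
def AltRow : Prop :=
  ∀ (G : Type u) (Ω : Type v) [Group G] [MulAction G Ω] (T : Subgroup G), AS G Ω T →
    ∀ n : ℕ, 5 ≤ n → Nonempty (↥T ≃* ↥(alternatingGroup (Fin n))) → TwoGen G

/-- The type of `ASRows.psl42`. -/
def Psl42Row : Prop :=
  ∀ (G : Type u) (Ω : Type v) [Group G] [MulAction G Ω] (T : Subgroup G), AS G Ω T →
    ∀ (F : Type) [Field F] [Fintype F], Fintype.card F = 2 →
      Nonempty (↥T ≃* Matrix.ProjectiveSpecialLinearGroup (Fin 4) F) → Nat.card Ω = 8 → TwoGen G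

/-- The type of `LinRows.g2`. -/
def G2Row : Prop :=
  ∀ (V : Type u) [AddCommGroup V] [Module (ZMod 2) V] [Finite V]
    (G L : Subgroup (V ≃ₗ[ZMod 2] V)) (F : Type) [Field F] [Fintype F] [Module F V],
    (∀ v w : V, v ≠ 0 → w ≠ 0 → ∃ g ∈ G, g v = w) → finrank F V = 6 → 4 ≤ Fintype.card F → SemiL F G → L ≤ G →
    Nor G L → (∀ g ∈ L, ∀ (c : F) (v : V), g (c • v) = c • g v) →
    (∀ g ∈ G, (∀ h ∈ L, g * h = h * g) → ∃ c : F, ∀ v, g v = c • v) →
    Nonempty (L ≃* Cfsg.Lie.chevG2.group F) → LGood G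

/-- The almost simple rows. -/
theorem asRows (h1 : AltRow.{u, v}) (h2 : Psl42Row.{u, v}) : ASRows.{u, v} where
  alt := h1
  psl2 := Cfsg.Agent.H791.Gen.psl2_row
  psl := Cfsg.Agent.H230.GenPsl.psl_final
  psl42 := h2
  sp := Cfsg.Agent.H500.Gen.asSp
  psu := fun _ _ _ _ T A F _ _ q hq hF e => Cfsg.Agent.H450.GenU.row_psu T A F q hq hF e
  sz := Cfsg.Agent.H491.Gen.sz
  ree := Cfsg.Agent.H491.Gen.ree
  m11 := SporRows.row_m11
  m12 := SporRows.row_m12
  m22 := SporRows.row_m22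
  m23 := SporRows.row_m23
  m24 := SporRows.row_m24
  hs := SporRows.row_hs
  co3 := SporRows.row_co3

/-- The linear rows. -/
theorem linRows (h1 : G2Row.{u}) : LinRows.{u} where
  semi := Cfsg.Agent.H500.Gen.lrSemi
  sl23 := Cfsg.Agent.H479.GenLin.row_sl23
  quat := Cfsg.Agent.H479.GenLin.row_quat
  ext32 := Ext.row_ext32
  sl := Cfsg.Agent.H490.GenSL.lin_sl
  sp := Cfsg.Agent.H484.GenSp.sp_row_full
  g2 := h1
  sl25 := Cfsg.Agent.H479.GenLin.row_sl25
  sl25' := Cfsg.Agent.H495.Gen.sl25'_row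
  a67 := ASixSeven.row_a67
  sl213 := Cfsg.Agent.H495.Gen.sl213_row
  u33 := Cfsg.Agent.H791.Gen.U33.u33

/-- The transitive linear groups. -/
theorem lgood (hH : Cfsg.Agent.H667.HerFin.Main.{u}) (R : LinRows.{u}) (p : ℕ) [Fact p.Prime] (V : Type u)
    [AddCommGroup V] [Module (ZMod p) V] [Finite V] [Nontrivial V] (G : Subgroup (V ≃ₗ[ZMod p] V))
    (htr : ∀ v w : V, v ≠ 0 → w ≠ 0 → ∃ g ∈ G, g v = w) : LGood G := by
  refine R.main htr (hH p V G ⊥ htr bot_le ?_ ?_)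
  · intro g _ n hn
    rw [mem_bot] at hn ⊢
    rw [hn, mul_one, mul_inv_cancel]
  · intro a ha b hb
    rw [mem_bot] at ha hb
    rw [ha, hb]

/-- **S3565** from HUB H1, Hering's theorem, the classification and the rows which are still missing. -/
theorem final (h1 : AltRow.{u, v}) (h2 : Psl42Row.{u, v}) (h3 : G2Row.{u}) (hR : Rows.{u, v})
    (hH : Cfsg.Agent.H667.HerFin.Main.{u})
    (hS : ∀ (X : Type u) [Group X] [Finite X] [IsSimpleGroup X], Cfsg.IsKnownSimple' X)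
    {G : Type u} {Ω : Type v} [Group G] [Finite G] [MulAction G Ω] [FaithfulSMul G Ω] [Fintype Ω] [DecidableEq Ω]
    (h : ∀ I J : Finset Ω, I.card = 2 → J.card = 2 → ∃ g : G, ∀ x ∈ I, g • x ∈ J) :
    ∃ x y : G, Subgroup.closure ({x, y} : Set G) = ⊤ := by
  refine main (fun G Ω _ _ T A => hR.main hS A) (asRows h1 h2) Cfsg.Agent.H490.AffStep.affineStep ?_
    (fun α _ _ G => Cfsg.Agent.H500.Gen.notTwo α G) h
  intro V _ p H hL
  have hp := Fact.mk hL.prime
  have hfin := hL.fin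
  have hnt : Nontrivial V := by
    obtain ⟨v, hv⟩ := hL.ne
    exact ⟨v, 0, hv⟩
  let _ : Module (ZMod p) V := AddCommGroup.zmodModule hL.tors
  exact Cfsg.Agent.H490.AffL.affGood_of_lin (p := p) H hL fun G htr => lgood hH (linRows h3) p V G htr

end Cfsg.Agent.H487.Gen
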