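import Cfsg.Agent.H994.TwoGen.Chain

/-!
# TEAM GEN: transitive subgroups of the symmetric group of degree 5 (helper487)

Every subgroup `Q` of `S_5` with a 5-cycle `c` is generated by `c` and an element `τ` such that `τ` is an
involution or normalises `⟨c⟩`.
-/

set_option autoImplicit false

namespace Cfsg.Agent.H487.Gen.SFive

open Subgroup Equiv Cfsg.Agent.H994.TwoGen.Chain

/-- a permutation of `Fin 5` from its table and the table of the inverse -/
def mk (t s : Fin 5 → Fin 5) (h1 : ∀ i, s (t i) = i) (h2 : ∀ i, t (s i) = i) : Perm (Fin 5) :=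
  ⟨t, s, h1, h2⟩

/-- `(0 1 2 3 4)` -/
def c : Perm (Fin 5) := mk ![1, 2, 3, 4, 0] ![4, 0, 1, 2, 3] (by decide) (by decide)
/-- `(0 1 2)` -/
def t : Perm (Fin 5) := mk ![1, 2, 0, 3, 4] ![2, 0, 1, 3, 4] (by decide) (by decide)
/-- `(0 1)` -/
def sw : Perm (Fin 5) := mk ![1, 0, 2, 3, 4] ![1, 0, 2, 3, 4] (by decide) (by decide)
/-- `(0 1)(2 3)` -/
def dd : Perm (Fin 5) := mk ![1, 0, 3, 2, 4] ![1, 0, 3, 2, 4] (by decide) (by decide)
/-- representatives of the double cosets outside the normaliser -/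
def rep : Fin 4 → Perm (Fin 5) := ![mk ![0, 1, 2, 4, 3] ![0, 1, 2, 4, 3] (by decide) (by decide),
  mk ![0, 1, 3, 4, 2] ![0, 1, 4, 2, 3] (by decide) (by decide),
  mk ![0, 1, 4, 3, 2] ![0, 1, 4, 3, 2] (by decide) (by decide),
  mk ![0, 2, 1, 4, 3] ![0, 2, 1, 4, 3] (by decide) (by decide)]
/-- words for `(0 1 2)` -/
def wd : Fin 4 → List ℕ := ![[0, 1, 2, 1, 0], [0, 3], [1, 2, 1, 2], [0, 0, 1, 2, 2, 1]]

theorem word_rep : ∀ k : Fin 4, ew c (rep k) (wd k) = t := by decide +kernel

theorem word_dd : ew c dd [2, 1, 0, 0, 1] = t := by decide +kernel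

theorem gen_alt : closure ({c, t} : Set (Perm (Fin 5))) = alternatingGroup (Fin 5) :=
  closure_eq (by rw [Perm.mem_alternatingGroup]; decide +kernel) (by rw [Perm.mem_alternatingGroup]; decide +kernel)
    [(0, [[], [0], [3], [0, 3], [2]]), (1, [[], [0, 1, 2], [0, 3, 2], [3, 2, 3]]), (2, [[], [3, 0], [2, 1]])]
    (by decide +kernel) (by rw [nat_card_alternatingGroup]; simp [Nat.factorial, size])

theorem gen_top : closure ({c, sw} : Set (Perm (Fin 5))) = ⊤ :=
  closure_eq (mem_top _) (mem_top _)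
    [(0, [[], [0], [0, 0], [2, 2], [2]]), (1, [[], [1, 0], [1, 0, 1, 0], [2, 1]]), (2, [[], [0, 0, 1, 2, 2], [2, 1, 0, 1, 2]]), (3, [[], [2, 2, 1, 0, 0]])]
    (by decide +kernel) (by rw [Subgroup.card_top, Nat.card_eq_fintype_card, Fintype.card_perm]; simp [Nat.factorial, size])

/-- the elements normalising `⟨c⟩` -/
def nrm (π : Perm (Fin 5)) : Prop := ∃ k : Fin 5, π * c * π⁻¹ = c ^ (k : ℕ)

instance (π : Perm (Fin 5)) : Decidable (nrm π) := by unfold nrm; infer_instance

theorem out : ∀ π : Perm (Fin 5), nrm π ∨ ∃ (i j : Fin 5) (k : Fin 4), c ^ (i : ℕ) * π * c ^ (j : ℕ) = rep k := by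
  decide +kernel

theorem chain : ∀ σ : Perm (Fin 5), nrm σ → ∀ τ : Perm (Fin 5), nrm τ →
    (∃ i j : Fin 5, σ = c ^ (i : ℕ) * τ ^ (j : ℕ)) ∨ (∃ i j : Fin 5, τ = c ^ (i : ℕ) * σ ^ (j : ℕ)) := by
  decide +kernel

/-- a subgroup with `c` and an element outside the normaliser of `⟨c⟩` contains `A_5` -/
theorem alt_le {Q : Subgroup (Perm (Fin 5))} (hc : c ∈ Q) {π : Perm (Fin 5)} (hπ : π ∈ Q) (hn : ¬ nrm π) :
    alternatingGroup (Fin 5) ≤ Q := by
  rcases out π with h | ⟨i, j, k, h⟩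
  · exact absurd h hn
  have h1 : rep k ∈ Q := by
    rw [← h]
    exact Q.mul_mem (Q.mul_mem (Q.pow_mem hc _) hπ) (Q.pow_mem hc _)
  have h2 : t ∈ Q := by
    rw [← word_rep k]
    refine ((closure_le (k := {c, rep k}) Q).2 ?_) (ew_mem _ _ _)
    rintro x (rfl | hx)
    · exact hc
    · rw [Set.mem_singleton_iff.1 hx]; exact h1
  rw [← gen_alt, closure_le]
  rintro x (rfl | hx)
  · exact hc
  · rw [Set.mem_singleton_iff.1 hx]; exact h2

/-- **The generation of the transitive subgroups of `S_5`.** -/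
theorem exists_gen (Q : Subgroup (Perm (Fin 5))) (hc : c ∈ Q) :
    ∃ τ ∈ Q, closure ({c, τ} : Set (Perm (Fin 5))) = Q ∧ (τ * τ = 1 ∨ ∃ k : ℕ, τ * c * τ⁻¹ = c ^ k) := by
  classical
  have hle : ∀ τ ∈ Q, closure ({c, τ} : Set (Perm (Fin 5))) ≤ Q := by
    intro τ hτ
    rw [closure_le]
    rintro x (rfl | hx)
    · exact hc
    · rw [Set.mem_singleton_iff.1 hx]; exact hτ
  by_cases hQ : ∀ π ∈ Q, nrm π
  · obtain ⟨τ, hτ, hmax⟩ := (Set.toFinite {τ : Perm (Fin 5) | τ ∈ Q}).exists_maximalFor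
      (fun τ => Nat.card (closure ({c, τ} : Set (Perm (Fin 5))))) _ ⟨1, Q.one_mem⟩
    refine ⟨τ, hτ, le_antisymm (hle τ hτ) ?_, Or.inr ?_⟩
    · intro σ hσ
      rcases chain σ (hQ σ hσ) τ (hQ τ hτ) with ⟨i, j, h⟩ | ⟨i, j, h⟩
      · rw [h]
        exact mul_mem (pow_mem (subset_closure (by simp)) _) (pow_mem (subset_closure (by simp)) _)
      · have h1 : closure ({c, τ} : Set (Perm (Fin 5))) ≤ closure ({c, σ} : Set (Perm (Fin 5))) := by
          rw [closure_le]
          rintro x (rfl | hx)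
          · exact subset_closure (by simp)
          · rw [Set.mem_singleton_iff.1 hx, h]
            exact mul_mem (pow_mem (subset_closure (by simp)) _) (pow_mem (subset_closure (by simp)) _)
        have h2 : Nat.card (closure ({c, σ} : Set (Perm (Fin 5)))) ≤
            Nat.card (closure ({c, τ} : Set (Perm (Fin 5)))) := by
          have h3 := Subgroup.card_le_of_le h1
          exact hmax hσ h3
        have h3 := Subgroup.eq_of_le_of_card_ge h1 h2
        rw [h3]
        exact subset_closure (by simp)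
    · obtain ⟨k, hk⟩ := hQ τ hτ
      exact ⟨k, hk⟩
  · push Not at hQ
    obtain ⟨π, hπ, hn⟩ := hQ
    have hA := alt_le hc hπ hn
    by_cases hQA : Q ≤ alternatingGroup (Fin 5)
    · have hQ : Q = alternatingGroup (Fin 5) := le_antisymm hQA hA
      have hd : dd ∈ Q := hA (by rw [Perm.mem_alternatingGroup]; decide +kernel)
      refine ⟨dd, hd, le_antisymm (hle _ hd) ?_, Or.inl (by decide +kernel)⟩
      rw [hQ, ← gen_alt, closure_le]
      rintro x (rfl | hx)
      · exact subset_closure (by simp)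
      · rw [Set.mem_singleton_iff.1 hx, ← word_dd]
        exact ew_mem _ _ _
    · obtain ⟨ρ, hρ, hρA⟩ := SetLike.not_le_iff_exists.1 hQA
      have hs : sw ∈ Q := by
        have h1 : sw * ρ⁻¹ ∈ alternatingGroup (Fin 5) := by
          have h2 : Perm.sign sw = -1 := by decide +kernel
          have h3 : Perm.sign ρ = -1 := by
            rcases Int.units_eq_one_or (Perm.sign ρ) with h | h
            · exact absurd (Perm.mem_alternatingGroup.2 h) hρA
            · exact h
          rw [Perm.mem_alternatingGroup, map_mul, map_inv, h2, h3]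
          decide
        have h2 := Q.mul_mem (hA h1) hρ
        rwa [inv_mul_cancel_right] at h2
      have hQ : Q = ⊤ := by
        rw [eq_top_iff, ← gen_top]
        exact hle _ hs
      exact ⟨sw, hs, by rw [gen_top, hQ], Or.inl (by decide +kernel)⟩

end Cfsg.Agent.H487.Gen.SFive
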